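/-
Project F2C (S3817, Flavell: membership in the second Fitting subgroup is decided in two-generated subgroups).
Definitions and the statements of the steps.
-/
import Cfsg.Agent.Fgs.Flv2

set_option autoImplicit false

open Cfsg CL.Grp CL.Odd
open scoped Pointwise commutatorElement

namespace CL.F2C

universe u

variable {G : Type u} [Group G]

/-- nilpotent `p'`-subgroup. -/
def NP (p : ℕ) (F : Subgroup G) : Prop := Group.IsNilpotent F ∧ ¬ p ∣ Nat.card F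

/-- `F ≤ K` normal in `H`, `F` a nilpotent `p'`-group, `K / F` a `p`-group. -/
structure Good (p : ℕ) (H F K : Subgroup G) : Prop where
  FK : F ≤ K
  KH : K ≤ H
  nF : H ≤ N[F]
  nK : H ≤ N[K]
  np : NP p F
  pw : ∀ k ∈ K, ∃ n : ℕ, k ^ p ^ n ∈ F

/-- for a `p`-element `x` this says `x ∈ F₂(H)`. -/
def Qp (p : ℕ) (x : G) (H : Subgroup G) : Prop := ∃ F K : Subgroup G, Good p H F K ∧ x ∈ K

/-- the hypothesis of the theorem. -/
def Hyp (p : ℕ) (x : G) : Prop := ∀ y : G, Qp p x (Subgroup.zpowers x ⊔ Subgroup.zpowers y)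

/-- the minimal counterexample with trivial Fitting subgroup; `D` is a class of subgroups of order `p`. -/
structure Core (p : ℕ) (D : Set (Subgroup G)) : Prop where
  pp : p.Prime
  ne : D.Nonempty
  card : ∀ A ∈ D, Nat.card A = p
  conj : ∀ A ∈ D, ∀ g : G, cj g • A ∈ D
  trans : ∀ A ∈ D, ∀ B ∈ D, ∃ g : G, cj g • A = B
  gen : sSup D = ⊤
  fit : ∀ M : Subgroup G, M.Normal → Group.IsNilpotent M → M = ⊥
  h1 : ∀ A ∈ D, ∀ y : G, A ⊔ Subgroup.zpowers y ≠ ⊤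
  h2 : ∀ H : Subgroup G, H ≠ ⊤ → ∃ F K : Subgroup G, Good p H F K ∧ ∀ A ∈ D, A ≤ H → A ≤ K

/-- generated by the `[R, A]`, `R` an `A`-invariant `q`-group. -/
def Wq (q : ℕ) (A : Subgroup G) : Subgroup G :=
  ⨆ (R : Subgroup G) (_ : IsPGroup q R ∧ A ≤ N[R]), ⁅R, A⁆

/-- generated by the `Wq q A`, `q ≠ p`. -/
def W (p : ℕ) (A : Subgroup G) : Subgroup G := ⨆ (q : ℕ) (_ : q.Prime ∧ q ≠ p), Wq q A

/-- the class of `E`-invariant `q`-groups `S` with `C_S(E) ≤ O_q(C(E))`. -/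
def Cl (q : ℕ) (E S : Subgroup G) : Prop := IsPGroup q S ∧ E ≤ N[S] ∧ S ⊓ C[E] ≤ pCoreOf q C[E]

/-- `[Q, E]` is in the class for every `E`-invariant `q`-group `Q`. -/
def K2 (q : ℕ) (E : Subgroup G) : Prop :=
  ∀ Q : Subgroup G, IsPGroup q Q → E ≤ N[Q] → ⁅Q, E⁆ ⊓ C[E] ≤ pCoreOf q C[E]

/-- distinct maximal members of the class intersect trivially. -/
def TI (q : ℕ) (E : Subgroup G) : Prop :=
  ∀ S T : Subgroup G, Maximal (Cl q E) S → Maximal (Cl q E) T → S ⊓ T ≠ ⊥ → S = T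

/-- distinct members of `D` do not commute. -/
def WC (D : Set (Subgroup G)) : Prop := ∀ A ∈ D, ∀ B ∈ D, B ≤ C[A] → A = B

/-- distinct members of `D` do not generate a `p`-group. -/
def WP (p : ℕ) (D : Set (Subgroup G)) : Prop := ∀ A ∈ D, ∀ B ∈ D, IsPGroup p ↥(A ⊔ B) → A = B

/-- each line through `A` lies in a proper subgroup over `N(A)`. -/
def Line (D : Set (Subgroup G)) : Prop :=
  ∀ A ∈ D, ∀ B ∈ D, A ≠ B → ∃ M : Subgroup G, M ≠ ⊤ ∧ N[A] ≤ M ∧ ∀ T ∈ D, A ⊔ B ⊔ T ≠ ⊤ → T ≤ M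

/-! ### the steps -/

def MainS : Prop := ∀ (G : Type u) [Group G] [Finite G] (p : ℕ) (x : G), p.Prime → (∃ n : ℕ, x ^ p ^ n = 1) →
  Hyp p x → Qp p x ⊤

def FinS : Prop := ∀ (G : Type u) [Group G] [Finite G] [(fittingSubgroup G).Normal]
  (hK : ∀ K : Subgroup G, (fittingSubgroup ↥K).Normal) (x : G),
    x ∈ (fittingSubgroup (G ⧸ fittingSubgroup G)).comap (QuotientGroup.mk' (fittingSubgroup G)) ↔
      ∀ y : G, ∀ hx : x ∈ Subgroup.closure ({x, y} : Set G),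
        haveI := hK (Subgroup.closure ({x, y} : Set G));
        (⟨x, hx⟩ : ↥(Subgroup.closure ({x, y} : Set G))) ∈
          (fittingSubgroup (↥(Subgroup.closure ({x, y} : Set G)) ⧸
            fittingSubgroup ↥(Subgroup.closure ({x, y} : Set G)))).comap
            (QuotientGroup.mk' (fittingSubgroup ↥(Subgroup.closure ({x, y} : Set G))))

def CoreS : Prop := ∀ (G : Type u) [Group G] [Finite G] (p : ℕ) (D : Set (Subgroup G)), ¬ Core p D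

def Solv1S : Prop := ∀ (G : Type u) [Group G] [Finite G] (p q : ℕ) (x : G) (V M : Subgroup G), p.Prime → q.Prime →
  q ≠ p → Hyp p x → V.Normal → M.Normal → IsMulCommutative V → ¬ q ∣ Nat.card V → V ≤ M →
  (∀ y ∈ M, ∃ k : ℕ, y ^ q ^ k ∈ V) → ∀ y ∈ M, ⁅x, y⁆ ∈ C[V]

def Solv2S : Prop := ∀ (G : Type u) [Group G] [Finite G] (p r : ℕ) (x : G) (V : Subgroup G) [V.Normal], p.Prime →
  r.Prime → (∃ n : ℕ, x ^ p ^ n = 1) → Hyp p x → Subgroup.normalClosure {x} = ⊤ → IsMulCommutative V →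
  IsPGroup r V → Qp p (QuotientGroup.mk' V x) ⊤ → Qp p x ⊤

def GenS : Prop := ∀ (G : Type u) [Group G] [Finite G] (p q : ℕ) (E S M : Subgroup G), p.Prime → q.Prime → q ≠ p →
  IsPGroup p E → IsMulCommutative E → ¬ IsCyclic E → IsPGroup q S → E ≤ N[S] →
  (∀ e ∈ E, e ≠ 1 → ⁅S ⊓ C1[e], E⁆ ⊓ C[E] ≤ M) → ⁅S, E⁆ ⊓ C[E] ≤ M

def StepIS : Prop := ∀ (G : Type u) [Group G] [Finite G] (p : ℕ) (D : Set (Subgroup G)), Core p D →
  (∀ A ∈ D, NP p (W p A)) → False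

def TIS : Prop := ∀ (G : Type u) [Group G] [Finite G] (p q : ℕ) (D : Set (Subgroup G)), Core p D → q.Prime → q ≠ p →
  ∀ A ∈ D, ∀ B ∈ D, IsPGroup p ↥(A ⊔ B) → K2 q (A ⊔ B) → TI q (A ⊔ B)

def K2ES : Prop := ∀ (G : Type u) [Group G] [Finite G] (p q : ℕ) (D : Set (Subgroup G)), Core p D → q.Prime → q ≠ p →
  ∀ A ∈ D, ∀ B ∈ D, A ≠ B → B ≤ C[A] → K2 q (A ⊔ B)

def K2AS : Prop := ∀ (G : Type u) [Group G] [Finite G] (p q : ℕ) (D : Set (Subgroup G)), Core p D → q.Prime → q ≠ p →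
  p ≠ 2 → ∀ A ∈ D, K2 q A

def StepES : Prop := ∀ (G : Type u) [Group G] [Finite G] (p : ℕ) (D : Set (Subgroup G)), Core p D →
  ∀ A ∈ D, ∀ B ∈ D, A ≠ B → B ≤ C[A] → (∀ q : ℕ, q.Prime → q ≠ p → K2 q (A ⊔ B) ∧ TI q (A ⊔ B)) → NP p (W p A)

def LZS : Prop := ∀ (G : Type u) [Group G] [Finite G] (p q r : ℕ) (D : Set (Subgroup G)), Core p D → q.Prime →
  r.Prime → q ≠ p → r ≠ p → q ≠ r → ∀ A ∈ D, ∀ (Y Y₁ : Subgroup G) (z : G), IsPGroup q Y → IsPGroup r Y₁ →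
  A ≤ N[Y] → A ≤ N[Y₁] → z ≠ 1 → (∃ k : ℕ, z ^ q ^ k = 1) → z ∈ C[Y] → z ∈ C[A] → z ∈ N[Y₁] →
  ⁅Y₁, A⁆ ≤ C[⁅Y, A⁆]

def LineS : Prop := ∀ (G : Type u) [Group G] [Finite G] (p : ℕ) (D : Set (Subgroup G)), Core p D → WP p D →
  (∀ A ∈ D, ∀ q : ℕ, q.Prime → q ≠ p → K2 q A ∧ TI q A) → Line D

def WPS : Prop := ∀ (G : Type u) [Group G] [Finite G] (p : ℕ) (D : Set (Subgroup G)), Core p D → WC D →
  WP p D ∧ p ≠ 2 ∧ ¬ Line D

end CL.F2C
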