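/-
Project F2C: basic API.
-/
import Cfsg.Agent.F2C.Defs

set_option autoImplicit false
set_option linter.unusedSectionVars false

open Cfsg CL.Grp CL.Odd
open scoped Pointwise commutatorElement

namespace CL.F2C

universe u

variable {G : Type u} [Group G] {p q r : ℕ} {D : Set (Subgroup G)} {A B E F H K L M R S T : Subgroup G} {x y z : G}

theorem cop_pq [Finite G] (hp : p.Prime) (hq : q.Prime) (h : q ≠ p) (hA : IsPGroup p A) (hR : IsPGroup q R) :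
    (Nat.card A).Coprime (Nat.card R) := by
  have := Fact.mk hp; have := Fact.mk hq
  exact IsPGroup.coprime_card_of_ne p q h.symm A R hA hR

theorem cop_np [Finite G] (hp : p.Prime) (hA : IsPGroup p A) (hF : ¬ p ∣ Nat.card F) :
    (Nat.card A).Coprime (Nat.card F) := by
  have := Fact.mk hp
  obtain ⟨n, hn⟩ := IsPGroup.iff_card.1 hA
  rw [hn]; exact Nat.Coprime.pow_left _ ((Nat.Prime.coprime_iff_not_dvd hp).2 hF)

theorem pow_of_pgroup (hR : IsPGroup q R) (hx : x ∈ R) : ∃ n : ℕ, x ^ q ^ n = 1 := by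
  obtain ⟨n, hn⟩ := hR ⟨x, hx⟩
  exact ⟨n, by simpa using congrArg Subtype.val hn⟩

theorem pgroup_of_pow (h : ∀ x ∈ R, ∃ n : ℕ, x ^ q ^ n = 1) : IsPGroup q R := fun x => by
  obtain ⟨n, hn⟩ := h x x.2
  exact ⟨n, Subtype.ext (by simpa using hn)⟩

theorem pgroup_zpowers {n : ℕ} (h : x ^ q ^ n = 1) : IsPGroup q (Subgroup.zpowers x) :=
  pgroup_of_pow fun _ ⟨k, hk⟩ => ⟨n, by
    rw [← hk, ← zpow_natCast, ← zpow_mul, mul_comm, zpow_mul, zpow_natCast, h, one_zpow]⟩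

theorem pgroup_sup (hA : IsPGroup q A) (hB : IsPGroup q B) (h : B ≤ N[A]) : IsPGroup q ↥(A ⊔ B) :=
  hA.to_sup_of_normal_left' hB h

theorem pgroup_cj (hA : IsPGroup q A) (g : G) : IsPGroup q ↥(cj g • A) := hA.map _

/-- a `q`-element with a `p`-power in `H` lies in `H`. -/
theorem mem_of_pow (hp : p.Prime) (hq : q.Prime) (h : q ≠ p) {m n : ℕ} (hx : x ^ q ^ m = 1) (hH : x ^ p ^ n ∈ H) :
    x ∈ H := by
  have hc : (p ^ n).Coprime (q ^ m) := Nat.Coprime.pow _ _ ((Nat.coprime_primes hp hq).2 h.symm)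
  have hc' : (p ^ n).Coprime (orderOf x) := hc.coprime_dvd_right (orderOf_dvd_of_pow_eq_one hx)
  obtain ⟨k, hk⟩ := exists_pow_eq_self_of_coprime hc'
  rw [← hk]; exact pow_mem hH k

/-- commuting elements of coprime prime power orders. -/
theorem mem_of_mul (hp : p.Prime) (hq : q.Prime) (h : q ≠ p) {m n : ℕ} (hx : x ^ q ^ m = 1) (hy : y ^ p ^ n = 1)
    (hc : x * y = y * x) (hH : x * y ∈ H) : x ∈ H ∧ y ∈ H := by
  have h1 : x ∈ H := mem_of_pow hp hq h hx (n := n) (by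
    have := pow_mem hH (p ^ n)
    rwa [Commute.mul_pow hc, hy, mul_one] at this)
  exact ⟨h1, by simpa using mul_mem (inv_mem h1) hH⟩

theorem isPGroup_quo_iff (hH : H ≤ N[M]) : IsPGroup p (quo M H) ↔ ∀ x ∈ H, ∃ n : ℕ, x ^ p ^ n ∈ M := by
  refine ⟨fun h x hx => ?_, fun h => pgroup_of_pow fun y hy => ?_⟩
  · obtain ⟨n, hn⟩ := pow_of_pgroup h (coset_mem_quo hx)
    exact ⟨n, (coset_eq_one_iff (pow_mem (hH hx) _)).1 (by rw [coset_pow (hH hx), hn])⟩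
  · obtain ⟨x, hx, hx', rfl⟩ := mem_quo.1 hy
    obtain ⟨n, hn⟩ := h x hx
    exact ⟨n, by rw [← coset_pow hx', coset_eq_one_iff (pow_mem hx' _)]; exact hn⟩

theorem commGid [Finite G] (hp : p.Prime) (hq : q.Prime) (h : q ≠ p) (hA : IsPGroup p A) (hR : IsPGroup q R)
    (hn : A ≤ N[R]) : ⁅⁅R, A⁆, A⁆ = ⁅R, A⁆ := coprime_commGid hn (cop_pq hp hq h hA hR)

theorem pgroup_comm (hR : IsPGroup q R) (hn : A ≤ N[R]) : IsPGroup q ↥⁅R, A⁆ := hR.to_le (comm_le_left hn)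

/-! ### nilpotent `p'`-groups -/

theorem NP.of_le (h : NP p F) (hL : L ≤ F) : NP p L :=
  ⟨nil_of_le h.1 hL, fun hd => h.2 (hd.trans (Subgroup.card_dvd_of_le hL))⟩

theorem NP.cj (h : NP p F) (g : G) : NP p (cj g • F) :=
  ⟨isNilpotent_map h.1 _, by rw [card_cj]; exact h.2⟩

theorem np_of_pgroup [Finite G] (hp : p.Prime) (hq : q.Prime) (h : q ≠ p) (hR : IsPGroup q R) : NP p R := by
  have := Fact.mk hq
  exact ⟨nil_of_isPGroup hq hR, fun hd => h (eq_of_prime_dvd_card_isPGroup hR hp hd).symm⟩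

theorem core_cent_core [Finite G] (hq : q.Prime) (hr : r.Prime) (h : q ≠ r) (F : Subgroup G) :
    pCoreOf q F ≤ C[pCoreOf r F] :=
  le_cent_of_coprime ((pCoreOf_normalIn r F).le.trans (pCoreOf_normalIn q F).norm)
    ((pCoreOf_normalIn q F).le.trans (pCoreOf_normalIn r F).norm)
    (cop_pq hq hr h.symm (pCoreOf_isPGroup q F) (pCoreOf_isPGroup r F))

/-- a join of nilpotent `p'`-groups, each normalised by the join. -/
theorem np_of_gen [Finite G] (hp : p.Prime) {𝒮 : Set (Subgroup G)} (h : ∀ S ∈ 𝒮, NP p S ∧ sSup 𝒮 ≤ N[S]) :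
    NP p (sSup 𝒮) := by
  refine ⟨nil_of_le (fittingOf_isNilpotent (sSup 𝒮)) (sSup_le fun S hS =>
    le_fittingOf (le_sSup hS) (h S hS).2 (h S hS).1.1), ?_⟩
  rw [← isPiSubgroup_compl_singleton_iff_not_dvd hp]
  refine isPiSubgroup_of_le (piCoreOf_isPiSubgroup {p}ᶜ (sSup 𝒮)) (sSup_le fun S hS => ?_)
  exact le_piCoreOf (le_sSup hS) (h S hS).2 ((isPiSubgroup_compl_singleton_iff_not_dvd hp).2 (h S hS).1.2)

theorem NP.sup [Finite G] (hp : p.Prime) (h1 : NP p F) (h2 : NP p L) (n1 : L ≤ N[F]) (n2 : F ≤ N[L]) :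
    NP p (F ⊔ L) := by
  rw [← sSup_pair]
  refine np_of_gen hp ?_
  rw [sSup_pair]
  rintro S (rfl | rfl)
  exacts [⟨h1, sup_le (le_norm_self _) n1⟩, ⟨h2, sup_le n2 (le_norm_self _)⟩]

/-- a nilpotent `p'`-group is generated by its `O_q`, `q ≠ p`. -/
theorem NP.le_of_core [Finite G] (hp : p.Prime) (h : NP p F) (hM : ∀ q : ℕ, q.Prime → q ≠ p → pCoreOf q F ≤ M) :
    F ≤ M := by
  refine le_of_forall_isPGroup_le fun q hq P hP hPq => ?_
  by_cases e : q = p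
  · subst e
    by_cases hb : P = ⊥
    · rw [hb]; exact bot_le
    · exact absurd ((dvd_card_of_isPGroup_ne_bot hPq hb).trans (Subgroup.card_dvd_of_le hP)) h.2
  · exact (le_pCoreOf_of_isNilpotent h.1 hPq hP).trans (hM q hq.out e)

/-- the elements whose commutators with `A` lie in the `S`-invariant subgroup `L`. -/
theorem comm_le_of_gen (hn : S ≤ N[L]) (h : ∀ X : Subgroup G, (∀ Y : Subgroup G, Y ≤ S → ⁅Y, A⁆ ≤ L → Y ≤ X) → S ≤ X) :
    ⁅S, A⁆ ≤ L := by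
  let X : Subgroup G :=
    { carrier := {s | s ∈ S ∧ ∀ a ∈ A, ⁅s, a⁆ ∈ L}
      one_mem' := ⟨one_mem _, fun a _ => by simp⟩
      mul_mem' := fun {s t} hs ht => ⟨mul_mem hs.1 ht.1, fun a ha => by
        have : ⁅s * t, a⁆ = s * ⁅t, a⁆ * s⁻¹ * ⁅s, a⁆ := by simp only [commutatorElement_def]; group
        rw [this]; exact mul_mem (conj_mem_of_norm (hn hs.1) (ht.2 a ha)) (hs.2 a ha)⟩
      inv_mem' := fun {s} hs => ⟨inv_mem hs.1, fun a ha => by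
        have : ⁅s⁻¹, a⁆ = s⁻¹ * ⁅s, a⁆⁻¹ * s := by simp only [commutatorElement_def]; group
        rw [this]; exact conj_mem_of_norm' (hn hs.1) (inv_mem (hs.2 a ha))⟩ }
  have := h X fun Y hY hL y hy => ⟨hY hy, fun a ha => hL (Subgroup.commutator_mem_commutator hy ha)⟩
  exact Subgroup.commutator_le.2 fun s hs a ha => (this hs).2 a ha

theorem NP.comm_le [Finite G] (hp : p.Prime) (h : NP p F) (hn : A ≤ N[F])
    (hM : ∀ q : ℕ, q.Prime → q ≠ p → ⁅pCoreOf q F, A⁆ ≤ M) : ⁅F, A⁆ ≤ M := by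
  have hL : ⁅F, A⁆ ≤ ⨆ (q : ℕ) (_ : q.Prime ∧ q ≠ p), ⁅pCoreOf q F, A⁆ := by
    refine comm_le_of_gen (le_norm_iSup fun q => le_norm_iSup fun hq => h.le_of_core hp fun r hr _ => ?_)
      fun X hX => h.le_of_core hp fun q hq e => hX _ (pCoreOf_normalIn q F).le
        (le_iSup₂_of_le (f := fun (q : ℕ) (_ : q.Prime ∧ q ≠ p) => ⁅pCoreOf q F, A⁆) q ⟨hq, e⟩ le_rfl)
    by_cases e : r = q
    · subst e; exact left_le_norm_comm _ _
    · exact le_norm_of_le_cent ((core_cent_core hr hq.1 e F).trans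
        (cent_anti (comm_le_left (hn.trans (normalizer_le_normalizer_pCoreOf q F)))))
  exact hL.trans (iSup₂_le fun q hq => hM q hq.1 hq.2)

/-! ### `Wq`, `W` -/

theorem le_Wq (hR : IsPGroup q R) (hn : A ≤ N[R]) : ⁅R, A⁆ ≤ Wq q A :=
  le_iSup₂_of_le (f := fun (R : Subgroup G) (_ : IsPGroup q R ∧ A ≤ N[R]) => ⁅R, A⁆) R ⟨hR, hn⟩ le_rfl

theorem Wq_le (h : ∀ R : Subgroup G, IsPGroup q R → A ≤ N[R] → ⁅R, A⁆ ≤ M) : Wq q A ≤ M :=
  iSup₂_le fun R hR => h R hR.1 hR.2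

theorem Wq_le_W (hq : q.Prime) (h : q ≠ p) : Wq q A ≤ W p A :=
  le_iSup₂_of_le (f := fun (q : ℕ) (_ : q.Prime ∧ q ≠ p) => Wq q A) q ⟨hq, h⟩ le_rfl

theorem W_le (h : ∀ q : ℕ, q.Prime → q ≠ p → Wq q A ≤ M) : W p A ≤ M := iSup₂_le fun q hq => h q hq.1 hq.2

theorem cj_Wq_le (g : G) (q : ℕ) (A : Subgroup G) : cj g • Wq q A ≤ Wq q (cj g • A) := by
  rw [cj_le_iff_le_cj_inv]
  refine Wq_le fun R hR hn => ?_
  rw [← cj_le_iff_le_cj_inv, cj_commutator]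
  exact le_Wq (pgroup_cj hR g) (by rw [← cj_normalizer]; exact cj_mono g hn)

theorem cj_Wq (g : G) (q : ℕ) (A : Subgroup G) : cj g • Wq q A = Wq q (cj g • A) := by
  refine le_antisymm (cj_Wq_le g q A) ?_
  have := cj_Wq_le g⁻¹ q (cj g • A)
  rwa [cj_inv_cj, ← le_cj_iff_cj_inv_le] at this

theorem cj_W (g : G) (p : ℕ) (A : Subgroup G) : cj g • W p A = W p (cj g • A) := by
  refine le_antisymm ?_ (W_le fun q hq e => by rw [← cj_Wq]; exact cj_mono g (Wq_le_W hq e))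
  rw [cj_le_iff_le_cj_inv]
  refine W_le fun q hq e => ?_
  rw [← cj_le_iff_le_cj_inv, cj_Wq]; exact Wq_le_W hq e

theorem norm_le_norm_Wq (q : ℕ) (A : Subgroup G) : N[A] ≤ N[Wq q A] := fun g hg =>
  cj_eq_self_iff.1 (by rw [cj_Wq, cj_eq_self hg])

theorem norm_le_norm_W (p : ℕ) (A : Subgroup G) : N[A] ≤ N[W p A] := fun g hg =>
  cj_eq_self_iff.1 (by rw [cj_W, cj_eq_self hg])

theorem NP.comm_le_W [Finite G] (hp : p.Prime) (h : NP p F) (hn : A ≤ N[F]) : ⁅F, A⁆ ≤ W p A :=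
  h.comm_le hp hn fun q hq e => (le_Wq (pCoreOf_isPGroup q F)
    (hn.trans (normalizer_le_normalizer_pCoreOf q F))).trans (Wq_le_W hq e)

theorem NP.le_norm_W [Finite G] (hp : p.Prime) (h : NP p F) (hA : IsPGroup p A) (hn : A ≤ N[F]) : F ≤ N[W p A] := by
  rw [← coprime_cent_prod hn (cop_np hp hA h.2) (Or.inr (sol_of_nil h.1))]
  exact sup_le (le_norm_of_le (h.comm_le_W hp hn)) (inf_le_right.trans ((cent_le_norm A).trans (norm_le_norm_W p A)))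

theorem exists_max [Finite G] (h : Cl q E S) : ∃ T : Subgroup G, Maximal (Cl q E) T ∧ S ≤ T := by
  obtain ⟨T, h1, h2⟩ := Finite.exists_le_maximal h
  exact ⟨T, h2, h1⟩

theorem K2.cl (h : K2 q E) (hR : IsPGroup q R) (hn : E ≤ N[R]) : Cl q E ⁅R, E⁆ :=
  ⟨pgroup_comm hR hn, right_le_norm_comm _ _, h R hR hn⟩

/-! ### good pairs -/

namespace Good

theorem inf (h : Good p H F K) (hL : L ≤ H) : Good p L (F ⊓ L) (K ⊓ L) :=
  ⟨inf_le_inf_right _ h.FK, inf_le_right, le_norm_inf (hL.trans h.nF) (le_norm_self _),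
    le_norm_inf (hL.trans h.nK) (le_norm_self _), h.np.of_le inf_le_left, fun k hk =>
      let ⟨n, hn⟩ := h.pw k hk.1
      ⟨n, hn, pow_mem hk.2 _⟩⟩

theorem map {G' : Type u} [Group G'] (h : Good p H F K) (f : G →* G') : Good p (H.map f) (F.map f) (K.map f) :=
  ⟨Subgroup.map_mono h.FK, Subgroup.map_mono h.KH, (NormalIn.map ⟨h.FK.trans h.KH, h.nF⟩ f).norm,
    (NormalIn.map ⟨h.KH, h.nK⟩ f).norm,
    ⟨isNilpotent_map h.np.1 f, fun hd => h.np.2 (hd.trans (Subgroup.card_map_dvd _ _))⟩, by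
      rintro _ ⟨k, hk, rfl⟩
      obtain ⟨n, hn⟩ := h.pw k hk
      exact ⟨n, _, hn, map_pow f k _⟩⟩

theorem subgroupOf (h : Good p H F K) : Good p ⊤ (F.subgroupOf H) (K.subgroupOf H) := by
  have e := Subgroup.subgroupOfEquivOfLe (h.FK.trans h.KH)
  refine ⟨Subgroup.comap_mono h.FK, le_top, ?_, ?_, ⟨isNilpotent_subgroupOf h.np.1 H, ?_⟩, fun k hk => h.pw k hk⟩
  · exact (NormalIn.top_iff.2 (NormalIn.normal_subgroupOf ⟨h.FK.trans h.KH, h.nF⟩)).norm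
  · exact (NormalIn.top_iff.2 (NormalIn.normal_subgroupOf ⟨h.KH, h.nK⟩)).norm
  · rw [Nat.card_congr e.toEquiv]; exact h.np.2

theorem sup [Finite G] (hp : p.Prime) {F' K' : Subgroup G} (h : Good p H F K) (h' : Good p H F' K') :
    Good p H (F ⊔ F') (K ⊔ K') := by
  have nFF := le_norm_sup h.nF h'.nF
  refine ⟨sup_le_sup h.FK h'.FK, sup_le h.KH h'.KH, nFF, le_norm_sup h.nK h'.nK,
    h.np.sup hp h'.np ((h'.FK.trans h'.KH).trans h.nF) ((h.FK.trans h.KH).trans h'.nF), fun k hk => ?_⟩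
  have hq : IsPGroup p (quo (F ⊔ F') (K ⊔ K')) := by
    rw [quo_sup (h.KH.trans nFF) (h'.KH.trans nFF)]
    refine pgroup_sup ((isPGroup_quo_iff (h.KH.trans nFF)).2 fun x hx => ?_)
      ((isPGroup_quo_iff (h'.KH.trans nFF)).2 fun x hx => ?_) (quo_le_norm _ (h'.KH.trans h.nK))
    · exact (h.pw x hx).imp fun n hn => Subgroup.mem_sup_left hn
    · exact (h'.pw x hx).imp fun n hn => Subgroup.mem_sup_right hn
  exact (isPGroup_quo_iff (sup_le (h.KH.trans nFF) (h'.KH.trans nFF))).1 hq k hk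

theorem ncore (h : Good p H F K) (q : ℕ) : H ≤ N[pCoreOf q F] := h.nF.trans (normalizer_le_normalizer_pCoreOf q F)

theorem core_le (h : Good p H F K) (q : ℕ) : pCoreOf q F ≤ pCoreOf q H :=
  le_pCoreOf ((pCoreOf_normalIn q F).le.trans (h.FK.trans h.KH)) (h.ncore q) (pCoreOf_isPGroup q F)

theorem comm_le_K (h : Good p H F K) (hR : R ≤ H) (hA : A ≤ K) : ⁅R, A⁆ ≤ K :=
  (Subgroup.commutator_mono le_rfl hA).trans (comm_le_right (hR.trans h.nK))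

variable [Finite G]

/-- `q`-subgroups of `K` lie in `O_q(F)`. -/
theorem le_core (h : Good p H F K) (hp : p.Prime) (hq : q.Prime) (e : q ≠ p) (hR : IsPGroup q R) (hK : R ≤ K) :
    R ≤ pCoreOf q F := by
  have := Fact.mk hq
  refine le_pCoreOf_of_isNilpotent h.np.1 hR fun x hx => ?_
  obtain ⟨m, hm⟩ := pow_of_pgroup hR hx
  obtain ⟨n, hn⟩ := h.pw x (hK hx)
  exact mem_of_pow hp hq e hm hn

theorem comm_le_core (h : Good p H F K) (hp : p.Prime) (hq : q.Prime) (e : q ≠ p) (hR : IsPGroup q R) (hH : R ≤ H)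
    (hA : A ≤ K) (hn : A ≤ N[R]) : ⁅R, A⁆ ≤ pCoreOf q F :=
  h.le_core hp hq e (pgroup_comm hR hn) (h.comm_le_K hH hA)

theorem comm_le_comm_core (h : Good p H F K) (hp : p.Prime) (hq : q.Prime) (e : q ≠ p) (hR : IsPGroup q R)
    (hH : R ≤ H) (hA : A ≤ K) (hAp : IsPGroup p A) (hn : A ≤ N[R]) : ⁅R, A⁆ ≤ ⁅pCoreOf q F, A⁆ := by
  rw [← commGid hp hq e hAp hR hn]
  exact Subgroup.commutator_mono (h.comm_le_core hp hq e hR hH hA hn) le_rfl

/-- `p`-subgroups of `K` are `F`-conjugate into one `p`-group. -/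
theorem syl (h : Good p H F K) (hp : p.Prime) (hA : IsPGroup p A) (hB : IsPGroup p B) (hAK : A ≤ K) (hBK : B ≤ K) :
    ∃ u ∈ F, IsPGroup p ↥(A ⊔ cj u • B) := by
  have := Fact.mk hp
  obtain ⟨P, hP, hAP⟩ := exists_isSylowIn_ge hA hAK
  obtain ⟨k, hk, hkB⟩ := hP.exists_conj_le hB hBK
  obtain ⟨n, hn⟩ := relIndex_eq_pow_of_pow_mem hp (h.KH.trans h.nF) h.pw
  obtain ⟨u, hu, s, hs, e⟩ := hP.exists_mul_eq_of_relIndex_pow hn (inv_mem hk)
  refine ⟨u⁻¹, inv_mem hu, hP.isPGroup.to_le (sup_le hAP ?_)⟩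
  have : u⁻¹ = s * k := by rw [eq_comm, ← inv_inv k, e]; group
  rw [this, cj_mul]; exact cj_le_of_mem hkB hs

end Good

theorem Qp.mono (h : Qp p x H) (hL : L ≤ H) (hy : y ∈ L) (hx : y ∈ Subgroup.zpowers x) : Qp p y L :=
  let ⟨_, _, hG, hK⟩ := h
  ⟨_, _, hG.inf hL, (Subgroup.zpowers_le.2 hK) hx, hy⟩

theorem Qp.map {G' : Type u} [Group G'] (h : Qp p x H) (f : G →* G') : Qp p (f x) (H.map f) :=
  let ⟨_, _, hG, hK⟩ := h
  ⟨_, _, hG.map f, _, hK, rfl⟩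

theorem qp_subtype_iff (hx : x ∈ H) : Qp p (⟨x, hx⟩ : H) ⊤ ↔ Qp p x H :=
  ⟨fun h => by simpa [← MonoidHom.range_eq_map] using h.map H.subtype, fun ⟨_, _, hG, hK⟩ => ⟨_, _, hG.subgroupOf, hK⟩⟩

/-! ### the core -/

namespace Core

variable [Finite G] (hC : Core p D)
include hC

theorem pgroup (hA : A ∈ D) : IsPGroup p A := IsPGroup.of_card (n := 1) (by rw [hC.card A hA, pow_one])

theorem ne_bot (hA : A ∈ D) : A ≠ ⊥ := fun e => hC.pp.one_lt.ne' (by rw [← hC.card A hA, e, Subgroup.card_bot])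

theorem eq_of_le (hA : A ∈ D) (hB : B ∈ D) (h : A ≤ B) : A = B :=
  Subgroup.eq_of_le_of_card_ge h (by rw [hC.card A hA, hC.card B hB])

/-- each non-identity element generates. -/
theorem zpowers_eq (hA : A ∈ D) (hx : x ∈ A) (h1 : x ≠ 1) : Subgroup.zpowers x = A := by
  have := Fact.mk hC.pp
  have h := Subgroup.card_dvd_of_le (Subgroup.zpowers_le.2 hx)
  rw [hC.card A hA, Nat.dvd_prime hC.pp] at h
  rcases h with h | h
  · exact absurd (Subgroup.zpowers_eq_bot.1 (Subgroup.eq_bot_of_card_eq _ h)) h1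
  · exact Subgroup.eq_of_le_of_card_ge (Subgroup.zpowers_le.2 hx) (by rw [h, hC.card A hA])

theorem exists_gen (hA : A ∈ D) : ∃ a ∈ A, a ≠ 1 ∧ Subgroup.zpowers a = A :=
  let ⟨a, ha, h1⟩ := ne_bot_iff.1 (hC.ne_bot hA)
  ⟨a, ha, h1, hC.zpowers_eq hA ha h1⟩

theorem abelian (hA : A ∈ D) : IsMulCommutative A :=
  abelian_of_cyclic (cyclic_of_prime_card (by rw [hC.card A hA]; exact hC.pp))

theorem pow_eq_one (hA : A ∈ D) (hx : x ∈ A) : x ^ p = 1 := by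
  have := pow_card_eq_one' (x := (⟨x, hx⟩ : A))
  rw [hC.card A hA] at this
  simpa using congrArg Subtype.val this

theorem inf_eq_bot (hA : A ∈ D) (h : ¬ A ≤ H) : A ⊓ H = ⊥ := by
  by_contra hne
  obtain ⟨x, hx, h1⟩ := ne_bot_iff.1 hne
  exact h (hC.zpowers_eq hA hx.1 h1 ▸ Subgroup.zpowers_le.2 hx.2)

/-- a `p`-group normalising a member of `D` centralises it. -/
theorem cent_of_norm (hA : A ∈ D) (hT : IsPGroup p T) (h : T ≤ N[A]) : T ≤ C[A] :=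
  pgroup_le_cent_prime hC.pp hT h (by rw [hC.card A hA])

theorem norm_ne_top (hR : Group.IsNilpotent R) (h : R ≠ ⊥) : N[R] ≠ ⊤ := fun e =>
  h (hC.fit R (norm_eq_top_iff.1 e) hR)

theorem norm_ne_top' (hq : q.Prime) (hR : IsPGroup q R) (h : R ≠ ⊥) : N[R] ≠ ⊤ :=
  hC.norm_ne_top (nil_of_isPGroup hq hR) h

theorem c1_ne_top (h : z ≠ 1) : C1[z] ≠ ⊤ := fun e =>
  hC.norm_ne_top (nil_of_abelian (abelian_zpowers z)) (mt Subgroup.zpowers_eq_bot.1 h)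
    (top_le_iff.1 (le_norm_zpowers_of_le_c1 e.ge))

theorem cent_ne_top (h : R ≠ ⊥) : C[R] ≠ ⊤ := fun e =>
  let ⟨_, hz, h1⟩ := ne_bot_iff.1 h
  hC.c1_ne_top h1 (top_le_iff.1 (e.ge.trans (cent_le_c1 hz)))

theorem sup_ne_top (hA : A ∈ D) (hB : B ∈ D) : A ⊔ B ≠ ⊤ := by
  obtain ⟨g, rfl⟩ := hC.trans A hA B hB
  exact ne_top_of_le_ne_top (hC.h1 A hA g)
    (sup_le le_sup_left (cj_le_of_mem le_sup_left (Subgroup.mem_sup_right (Subgroup.mem_zpowers g))))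

omit hC in
theorem D_le_sup (A : Subgroup G) (h : G) : Flv.D A h ≤ A ⊔ cj h⁻¹ • A := Flv.D_le_iff.2 fun a ha => by
  have h1 : h⁻¹ * a * h⁻¹⁻¹ ∈ cj h⁻¹ • A := conj_mem_cj.2 ha
  have : h⁻¹ * (a * h * a⁻¹) = h⁻¹ * a * h⁻¹⁻¹ * a⁻¹ := by group
  rw [this]; exact mul_mem (Subgroup.mem_sup_right h1) (Subgroup.mem_sup_left (inv_mem ha))

/-- `h = c d`, `d ∈ [h, A]`, `c ∈ C_R(A)`; `[h, A] = [[h, A], A]` is an `A`-invariant subgroup of `R`. -/
theorem decomp (hA : A ∈ D) (hq : q.Prime) (e : q ≠ p) (hR : IsPGroup q R) (hn : A ≤ N[R]) {h : G} (hh : h ∈ R) :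
    Flv.D A h ≤ ⁅Flv.D A h, A⁆ ∧ ∃ d ∈ Flv.D A h, cj d⁻¹ • A = cj h⁻¹ • A ∧ Flv.D A h ≤ A ⊔ cj d⁻¹ • A := by
  have hc := cop_pq hC.pp hq e (hC.pgroup hA) hR
  obtain ⟨c, hc1, d, hd, rfl⟩ := Flv.decomp hn hc (sol_of_isPGroup hq hR) hh
  have : cj d⁻¹ • A = cj (c * d)⁻¹ • A := by rw [mul_inv_rev, cj_mul, cj_eq_self_of_mem_cent (inv_mem hc1.2)]
  exact ⟨Flv.D_le_comm_D hn hc (sol_of_isPGroup hq hR) hh, d, hd, this, this ▸ D_le_sup A _⟩

/-- `⟨A, [h, A], n⟩` is proper for `n ∈ N(A)`. -/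
theorem k1 (hA : A ∈ D) (hq : q.Prime) (e : q ≠ p) (hR : IsPGroup q R) (hn : A ≤ N[R]) {h n : G} (hh : h ∈ R)
    (hN : n ∈ N[A]) : ∃ H : Subgroup G, H ≠ ⊤ ∧ A ≤ H ∧ Flv.D A h ≤ H ∧ n ∈ H := by
  obtain ⟨-, d, hd, -, h2⟩ := hC.decomp hA hq e hR hn hh
  have hm : d⁻¹ * n ∈ A ⊔ Subgroup.zpowers (d⁻¹ * n) := Subgroup.mem_sup_right (Subgroup.mem_zpowers _)
  have h3 : Flv.D A h ≤ A ⊔ Subgroup.zpowers (d⁻¹ * n) := h2.trans (sup_le le_sup_left (by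
    rw [← cj_eq_self hN, ← cj_mul, cj_eq_self hN]; exact cj_le_of_mem le_sup_left hm))
  exact ⟨_, hC.h1 A hA _, le_sup_left, h3, by simpa using mul_mem (h3 hd) hm⟩

/-- the `[h, A]`-part lands in `[O_q(F), A]`. -/
theorem D_le_core (hA : A ∈ D) (hq : q.Prime) (e : q ≠ p) (hR : IsPGroup q R) (hn : A ≤ N[R]) {h : G} (hh : h ∈ R)
    (hG : Good p H F K) (hAK : A ≤ K) (hD : Flv.D A h ≤ H) :
    Flv.D A h ≤ pCoreOf q F ∧ Flv.D A h ≤ ⁅pCoreOf q F, A⁆ := by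
  have h1 := (hC.decomp hA hq e hR hn hh).1
  have hq' : IsPGroup q (Flv.D A h) := hR.to_le (Flv.D_le hh hn)
  exact ⟨h1.trans (hG.comm_le_core hC.pp hq e hq' hD hAK (Flv.norm_D A h)),
    h1.trans (hG.comm_le_comm_core hC.pp hq e hq' hD hAK (hC.pgroup hA) (Flv.norm_D A h))⟩

end Core

end CL.F2C
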