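/-
Project F2C: assembly of the core contradiction from the steps.
-/
import Cfsg.Agent.F2C.Basic

set_option autoImplicit false

open Cfsg CL.Grp CL.Odd
open scoped Pointwise commutatorElement

namespace CL.F2C

universe u

theorem exists_pow_not_dvd {G : Type u} [Group G] [Finite G] {p : ℕ} (hp : p.Prime) (x : G) :
    ∃ m : ℕ, ¬ p ∣ orderOf (x ^ p ^ m) := by
  have h0 : orderOf x ≠ 0 := (orderOf_pos x).ne'
  refine ⟨(orderOf x).factorization p, ?_⟩
  rw [orderOf_pow_of_dvd (pow_pos hp.pos _).ne' (Nat.ordProj_dvd _ _)]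
  exact Nat.not_dvd_ordCompl hp h0

/-- a nilpotent normal subgroup with a `p`-group on top gives a good pair. -/
theorem good_of_nil {G : Type u} [Group G] [Finite G] {p : ℕ} {H F K : Subgroup G} (hp : p.Prime) (FK : F ≤ K)
    (KH : K ≤ H) (nF : H ≤ N[F]) (nK : H ≤ N[K]) (hN : Group.IsNilpotent F)
    (pw : ∀ k ∈ K, ∃ n : ℕ, k ^ p ^ n ∈ F) : Good p H (piCoreOf {p}ᶜ F) K := by
  refine ⟨(piCoreOf_le _ F).trans FK, KH, nF.trans (normalizer_le_normalizer_piCoreOf _ F), nK,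
    ⟨nil_of_le hN (piCoreOf_le _ F),
      (isPiSubgroup_compl_singleton_iff_not_dvd hp).1 (piCoreOf_isPiSubgroup _ F)⟩, fun k hk => ?_⟩
  obtain ⟨n, hn⟩ := pw k hk
  obtain ⟨m, hm⟩ := exists_pow_not_dvd hp (k ^ p ^ n)
  refine ⟨n + m, ?_⟩
  rw [pow_add, pow_mul, Hall.mem_piCoreOf_iff (nil_hall_piCoreOf _ hN) (pow_mem hn _)]
  rintro q - hq rfl
  exact hm hq

theorem core (hI : StepIS.{u}) (hT : TIS.{u}) (hE : K2ES.{u}) (hA : K2AS.{u}) (hS : StepES.{u}) (hL : LineS.{u})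
    (hW : WPS.{u}) : CoreS.{u} := by
  intro G _ _ p D hC
  by_cases hc : WC D
  · obtain ⟨h1, h2, h3⟩ := hW G p D hC hc
    refine h3 (hL G p D hC h1 fun A hAD q hq e => ?_)
    have k := hA G p q D hC hq e h2 A hAD
    have := hT G p q D hC hq e A hAD A hAD
    rw [sup_idem] at this
    exact ⟨k, this (hC.pgroup hAD) k⟩
  · simp only [WC, not_forall] at hc
    obtain ⟨A, hAD, B, hBD, hAB, hne⟩ := hc
    have := hS G p D hC A hAD B hBD hne hAB fun q hq e =>
      have k := hE G p q D hC hq e A hAD B hBD hne hAB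
      ⟨k, hT G p q D hC hq e A hAD B hBD
        (pgroup_sup (hC.pgroup hAD) (hC.pgroup hBD) (le_norm_of_le_cent hAB)) k⟩
    refine hI G p D hC fun T hT => ?_
    obtain ⟨g, rfl⟩ := hC.trans A hAD T hT
    rw [← cj_W]; exact this.cj g

end CL.F2C
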