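/-
Project F2C: the final reduction to elements of prime power order.
-/
import Cfsg.Agent.F2C.Asm

set_option autoImplicit false
set_option linter.unusedSectionVars false

open Cfsg CL.Grp CL.Odd
open scoped Pointwise commutatorElement

namespace CL.F2C

universe u

namespace Fin2

/-- the second Fitting subgroup -/
def F2 (X : Type u) [Group X] : Subgroup X :=
  (fittingSubgroup (X ⧸ fittingSubgroup X)).comap (QuotientGroup.mk' (fittingSubgroup X))

theorem mem_iff {X : Type u} [Group X] [Finite X] {p : ℕ} (hp : p.Prime) {z : X} {n : ℕ} (hz : z ^ p ^ n = 1) :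
    z ∈ F2 X ↔ Qp p z ⊤ := by
  have := Fact.mk hp
  constructor
  · intro h
    have hz' : QuotientGroup.mk' (fittingSubgroup X) z ^ p ^ n = 1 := by rw [← map_pow, hz, map_one]
    have h1 := le_pCore_of_le_fittingSubgroup (pgroup_zpowers hz') (Subgroup.zpowers_le.2 h)
    refine ⟨_, (pCore p (X ⧸ fittingSubgroup X)).comap (QuotientGroup.mk' (fittingSubgroup X)),
      good_of_nil (F := fittingSubgroup X) hp (fun a ha => ?_) le_top (norm_eq_top_iff.2 inferInstance).ge
        (norm_eq_top_iff.2 inferInstance).ge (fittingSubgroup_isNilpotent X) fun k hk => ?_,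
      h1 (Subgroup.mem_zpowers _)⟩
    · rw [Subgroup.mem_comap, QuotientGroup.mk'_apply, (QuotientGroup.eq_one_iff a).2 ha]
      exact one_mem _
    · obtain ⟨m, hm⟩ := pow_of_pgroup (pCore_isPGroup p _) hk
      exact ⟨m, (QuotientGroup.eq_one_iff _).1 (by rw [← hm]; rfl)⟩
  · rintro ⟨F, K, hG, hK⟩
    have hF : F.Normal := norm_eq_top_iff.1 (top_le_iff.1 hG.nF)
    have hKn : K.Normal := norm_eq_top_iff.1 (top_le_iff.1 hG.nK)
    have h1 : F ≤ fittingSubgroup X := le_fittingSubgroup hG.np.1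
    have h2 : (K.map (QuotientGroup.mk' (fittingSubgroup X))).Normal :=
      hKn.map _ (QuotientGroup.mk'_surjective _)
    have h3 : IsPGroup p (K.map (QuotientGroup.mk' (fittingSubgroup X))) := pgroup_of_pow (by
      rintro _ ⟨k, hk, rfl⟩
      obtain ⟨m, hm⟩ := hG.pw k hk
      exact ⟨m, by rw [← map_pow, QuotientGroup.mk'_apply, (QuotientGroup.eq_one_iff _).2 (h1 hm)]⟩)
    exact pCore_le_fittingSubgroup p (le_pCore h3 ⟨z, hK, rfl⟩)

end Fin2

theorem fin (hm : MainS.{u}) : FinS.{u} := by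
  intro G _ _ _ hK x
  change x ∈ Fin2.F2 G ↔ ∀ y : G, ∀ hx : x ∈ Subgroup.closure ({x, y} : Set G),
    (⟨x, hx⟩ : Subgroup.closure ({x, y} : Set G)) ∈ Fin2.F2 (Subgroup.closure ({x, y} : Set G))
  constructor
  · intro h y hx
    refine Subgroup.zpowers_le.1 (le_of_forall_isPGroup_le fun p hp P hP hPp z hz => ?_)
    obtain ⟨n, hn⟩ := pow_of_pgroup hPp hz
    have hn' : (z : G) ^ p ^ n = 1 := by simpa using congrArg Subtype.val hn
    have h1 : (z : G) ∈ Subgroup.zpowers x := by
      obtain ⟨k, hk⟩ := hP hz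
      exact ⟨k, by simpa using congrArg Subtype.val hk⟩
    have h2 := (Fin2.mem_iff hp.out hn').1 (Subgroup.zpowers_le.2 h h1)
    exact (Fin2.mem_iff hp.out hn).2 ((qp_subtype_iff z.2).2 (h2.mono le_top z.2 (Subgroup.mem_zpowers _)))
  · intro h
    refine Subgroup.zpowers_le.1 (le_of_forall_isPGroup_le fun p hp P hP hPp z hz => ?_)
    obtain ⟨n, hn⟩ := pow_of_pgroup hPp hz
    refine (Fin2.mem_iff hp.out hn).2 (hm G p z hp.out ⟨n, hn⟩ fun y => ?_)
    have hx : x ∈ Subgroup.closure ({x, y} : Set G) := Subgroup.subset_closure (by simp)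
    have hy : y ∈ Subgroup.closure ({x, y} : Set G) := Subgroup.subset_closure (by simp)
    have hzL : z ∈ Subgroup.closure ({x, y} : Set G) := Subgroup.zpowers_le.2 hx (hP hz)
    have h1 : (⟨z, hzL⟩ : Subgroup.closure ({x, y} : Set G)) ∈ Fin2.F2 (Subgroup.closure ({x, y} : Set G)) := by
      obtain ⟨k, hk⟩ := hP hz
      exact Subgroup.zpowers_le.2 (h y hx) ⟨k, Subtype.ext (by simpa using hk)⟩
    have h2 := (qp_subtype_iff hzL).1 ((Fin2.mem_iff hp.out (n := n) (Subtype.ext (by simpa using hn))).1 h1)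
    exact h2.mono (sup_le (Subgroup.zpowers_le.2 hzL) (Subgroup.zpowers_le.2 hy))
      (Subgroup.mem_sup_left (Subgroup.mem_zpowers z)) (Subgroup.mem_zpowers z)

end CL.F2C
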