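/-
Project F2C: generation of `[S, E] ⊓ C(E)` for a non-cyclic abelian group `E` acting coprimely on a `q`-group `S`.
-/
import Cfsg.Agent.F2C.Asm

set_option autoImplicit false
set_option linter.unusedSectionVars false

open Cfsg CL.Grp CL.Odd Subgroup
open scoped Pointwise commutatorElement

namespace CL.F2C

universe u

namespace Genh

variable {G : Type u} [Group G] {A B C E S : Subgroup G}

theorem tsl (h1 : ⁅B, C⁆ ≤ C[A]) (h2 : ⁅C, A⁆ ≤ C[B]) : ⁅A, B⁆ ≤ C[C] :=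
  comm_eq_bot_iff.1 (commutator_commutator_eq_bot_of_rotate (comm_eq_bot_iff.2 h1) (comm_eq_bot_iff.2 h2))

theorem core [Finite G] (hS : Group.IsNilpotent S) (hE : IsMulCommutative E) (hnc : ¬ IsCyclic E) (hn : E ≤ N[S])
    (hc : (Nat.card E).Coprime (Nat.card S)) (e1 : ⁅S, E⁆ = S) (S0 : S ≠ ⊥) (hZ : Z[S] ≤ C[E])
    (h0 : ∀ e ∈ E, e ≠ 1 → ⁅S ⊓ C1[e], E⁆ ⊓ Z[S] = ⊥) : False := by
  have sol : ∀ {K : Subgroup G}, K ≤ S → Group.IsSolvable K := fun h => sol_of_le (sol_of_nil hS) h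
  have nS : S ⊴ S ⊔ E := NormalIn.sup_left hn
  have lt : Z[S] < S := lt_of_le_of_ne inf_le_left fun e => S0 (e1 ▸ comm_eq_bot_iff.2 (e ▸ hZ))
  obtain ⟨U, hUS, hU⟩ := exists_chiefFactor_bot nS.center' nS lt
  have c1 : ⁅U, S⁆ ≤ Z[S] := hU.comm_le_of_nil nS hS
  have c2 : ⁅S, U⁆ ≤ Z[S] := commutator_comm U S ▸ c1
  have nU : E ≤ N[U] := le_sup_right.trans hU.2.2.1.norm
  have i1 : U ⊓ C[E] ≤ Z[S] := by
    refine le_inf (inf_le_left.trans hUS) (cent_symm ?_)
    have := tsl (A := E) (B := S) (C := U ⊓ C[E]) (((commutator_mono le_rfl inf_le_left).trans c2).trans hZ)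
      ((comm_eq_bot_iff.2 inf_le_right).le.trans bot_le)
    rwa [commutator_comm, e1] at this
  obtain ⟨e, he, e0, hY⟩ := coprime_abelian_exists_cent1 hE hnc nU (coprime_of_le_right hc hUS) hU.1.not_ge
  have ce : E ≤ N[C1[e]] := le_norm_c1_of_le_c1 ((abelian_iff.1 hE).trans (cent_le_c1 he))
  have ze : zpowers e ≤ E := zpowers_le.2 he
  have nY : E ≤ N[U ⊓ C1[e]] := le_norm_inf nU ce
  have nT : E ≤ N[S ⊓ C1[e]] := le_norm_inf hn ce
  have mY : ⁅U ⊓ C1[e], E⁆ ≤ U ⊓ C1[e] := comm_le_left nY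
  have mU : ⁅U ⊓ C1[e], E⁆ ≤ U := mY.trans inf_le_left
  have i3 : ⁅S, zpowers e⁆ ≤ C[⁅U ⊓ C1[e], E⁆] :=
    tsl ((comm_eq_bot_iff'.2 (centralizer_zpowers e ▸ mY.trans inf_le_right)).le.trans bot_le)
      ((((commutator_mono mU le_rfl).trans c1).trans hZ).trans (cent_anti ze))
  have i4 : S ⊓ C[E] ≤ C[⁅U ⊓ C1[e], E⁆] :=
    (cent_symm (tsl (A := U) ((comm_eq_bot_iff'.2 inf_le_right).le.trans bot_le)
      (((commutator_mono inf_le_left le_rfl).trans c2).trans hZ))).trans (cent_anti (commutator_mono inf_le_left le_rfl))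
  have i5 : ⁅S ⊓ C1[e], E⁆ ≤ C[⁅U ⊓ C1[e], E⁆] := comm_eq_bot_iff.1 (le_bot_iff.1 ((le_inf
    (comm_le_of_le le_rfl (commutator_mono (inf_le_inf_right _ hUS) le_rfl))
    ((commutator_mono ((comm_le_left nT).trans inf_le_left) mU).trans c2)).trans (h0 e he e0).le))
  have i6 : S ⊓ C1[e] ≤ C[⁅U ⊓ C1[e], E⁆] :=
    (coprime_cent_prod nT (coprime_of_le_right hc inf_le_left) (.inr (sol inf_le_left))).ge.trans
      (sup_le i5 ((inf_le_inf_right _ inf_le_left).trans i4))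
  have i7 : S ≤ C[⁅U ⊓ C1[e], E⁆] :=
    (coprime_cent_prod (ze.trans hn) (hc.coprime_dvd_left (card_dvd_of_le ze)) (.inr (sol le_rfl))).ge.trans
      (sup_le i3 (centralizer_zpowers e ▸ i6))
  exact hY ((coprime_cent_prod nY (coprime_of_le_right hc (inf_le_left.trans hUS))
    (.inr (sol (inf_le_left.trans hUS)))).ge.trans (sup_le (le_inf (mU.trans hUS) (cent_symm i7))
      ((inf_le_inf_right _ inf_le_left).trans i1)))

theorem aux {p q : ℕ} (hp : p.Prime) (hq : q.Prime) (hpq : q ≠ p) (n : ℕ) : ∀ (G : Type u) [Group G] [Finite G]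
    (E S M : Subgroup G), Nat.card S = n → IsPGroup p E → IsMulCommutative E → ¬ IsCyclic E → IsPGroup q S →
    E ≤ N[S] → (∀ e ∈ E, e ≠ 1 → ⁅S ⊓ C1[e], E⁆ ⊓ C[E] ≤ M) → ⁅S, E⁆ ⊓ C[E] ≤ M := by
  induction n using Nat.strong_induction_on with
  | _ n ih =>
  intro G _ _ E S M hcard hE hab hnc hS hn hM
  have hc := cop_pq hp hq hpq hE hS
  have ce : ∀ e ∈ E, E ≤ N[S ⊓ C1[e]] := fun e he =>
    le_norm_inf hn (le_norm_c1_of_le_c1 ((abelian_iff.1 hab).trans (cent_le_c1 he)))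
  by_cases e1 : ⁅S, E⁆ = S
  swap
  · have hlt : ⁅S, E⁆ < S := lt_of_le_of_ne (comm_le_left hn) e1
    have := ih _ (hcard ▸ lt_of_le_of_ne (card_le_of_le hlt.le) fun e => hlt.ne (eq_of_le_of_card_ge hlt.le e.ge)) G E
      ⁅S, E⁆ M rfl hE hab hnc (hS.to_le hlt.le) (right_le_norm_comm _ _) fun e he e0 =>
        (inf_le_inf_right _ (commutator_mono (inf_le_inf_right _ hlt.le) le_rfl)).trans (hM e he e0)
    rwa [coprime_commGid hn hc] at this
  rw [e1]
  by_cases S0 : S = ⊥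
  · rw [S0, bot_inf_eq]; exact bot_le
  have hnil := nil_of_isPGroup hq hS
  have hM' : ∀ e ∈ E, e ≠ 1 → ⁅S ⊓ C1[e], E⁆ ⊓ C[E] ≤ M ⊓ S ⊓ C[E] := fun e he e0 =>
    le_inf (le_inf (hM e he e0) (inf_le_left.trans ((comm_le_left (ce e he)).trans inf_le_left))) inf_le_right
  have Q : ∀ N : Subgroup G, N ≠ ⊥ → N ≤ Z[S] → E ≤ N[N] → N ⊓ C[E] ≤ M → S ⊓ C[E] ≤ M := by
    intro N N0 hN n2 hNM
    have hNS : N ≤ S := hN.trans inf_le_left
    have n1 : S ≤ N[N] := le_norm_of_le_cent (cent_symm (hN.trans inf_le_right))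
    have cN := coprime_of_le_right hc hNS
    have sN : Group.IsSolvable N := sol_of_le (sol_of_nil hnil) hNS
    have lt : Nat.card (quo N S) < n := by
      rw [← hcard, ← card_mul_card_quo ⟨hNS, n1⟩]
      exact lt_mul_left Nat.card_pos ((one_lt_card_iff_ne_bot N).2 N0)
    have f := quoEquivOfInf n2 (inf_eq_bot_of_coprime_card cN.symm)
    have k1 := ih _ lt (Quo N) (quo N E) (quo N S) (quo N (M ⊓ S ⊓ C[E])) rfl (hE.of_equiv f)
      ((abelian_quo_iff n2).2 ((abelian_iff_der.1 hab).le.trans bot_le)) (fun h => hnc (f.isCyclic.2 h))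
      (hS.of_surjective _ (quoHom_surjective n1)) (quo_le_norm N hn) fun b hb b1 => by
        obtain ⟨e, he, rfl⟩ := (mem_quo_of_le n2).1 hb
        have ze : zpowers e ≤ E := zpowers_le.2 he
        rw [← centralizer_zpowers, ← quo_zpowers (n2 he), coprime_norm_quotient_cent (ze.trans hn) (ze.trans n2)
          (cN.coprime_dvd_left (card_dvd_of_le ze)) (.inr sN), centralizer_zpowers,
          ← quo_comm (inf_le_left.trans n1) n2, coprime_norm_quotient_cent (right_le_norm_comm _ _) n2 cN (.inr sN)]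
        exact quo_mono N (hM' e he fun e => b1 (e ▸ coset_one N))
    have n3 : M ⊓ S ⊓ C[E] ≤ N[N] := (inf_le_left.trans inf_le_right).trans n1
    rw [← quo_comm n1 n2, e1, coprime_norm_quotient_cent hn n2 cN (.inr sN),
      quo_le_quo_iff (inf_le_left.trans n1) n3] at k1
    refine (le_inf inf_le_right k1).trans ?_
    rw [inf_sup_dedekind' (.inl n3) inf_le_right]
    exact sup_le (inf_comm C[E] N ▸ hNM) (inf_le_left.trans inf_le_left)
  have nZ : E ≤ N[Z[S]] := hn.trans (norm_le_norm_center S)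
  by_cases h1 : ⁅Z[S], E⁆ = ⊥
  swap
  · exact Q _ h1 (comm_le_left nZ) (right_le_norm_comm _ _)
      ((coprime_abel_cent_TI nZ (coprime_of_le_right hc inf_le_left) (abelian_center S)).le.trans bot_le)
  have hZ := comm_eq_bot_iff.1 h1
  by_cases h2 : Z[S] ⊓ M = ⊥
  swap
  · exact Q _ h2 inf_le_left (le_norm_of_le_cent (cent_symm (inf_le_left.trans hZ))) (inf_le_left.trans inf_le_right)
  exact (core hnil hab hnc hn hc e1 S0 hZ fun e he e0 => le_bot_iff.1
    ((le_inf inf_le_right ((inf_le_inf_left _ hZ).trans (hM e he e0))).trans h2.le)).elim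

end Genh

theorem gen : GenS.{u} := fun G _ _ _ _ E S M hp hq hpq => Genh.aux hp hq hpq _ G E S M rfl

end CL.F2C
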