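/-
Project F2C: Lemma Z.
-/
import Cfsg.Agent.F2C.Asm

set_option autoImplicit false
set_option linter.unusedSectionVars false

open Cfsg CL.Grp CL.Odd Subgroup
open scoped Pointwise commutatorElement

namespace CL.F2C

universe u

theorem sylow_sup {G : Type u} [Group G] [Finite G] {p : ℕ} {A Y : Subgroup G} (hp : p.Prime) (hA : IsPGroup p A)
    (hY : ¬ p ∣ Nat.card Y) (hn : A ≤ N[Y]) : IsSylowIn p A (Y ⊔ A) := by
  have := Fact.mk hp
  refine isSylowIn_of_maximal le_sup_right hA fun U hU h1 h2 => ?_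
  have := inf_sup_dedekind' (Or.inl hn) h1
  rwa [inf_eq_left.2 h2, inf_eq_bot_of_coprime_card (cop_np hp hU hY), bot_sup_eq] at this

theorem lz : LZS.{u} := by
  intro G _ _ p q r D hC hq hr eq er hqr A hA Y Y₁ z hY hY₁ nY nY₁ z1 ⟨k, hk⟩ zY zA zN
  have hp := hC.pp
  have := Fact.mk hp
  have := Fact.mk hr
  have hAp := hC.pgroup hA
  refine Flv.comm_le_of_D fun h hh => cent_symm (Flv.comm_le_of_D fun g hg => ?_)
  obtain ⟨a, ha, a1, haA⟩ := hC.exists_gen hA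
  set H := cj h⁻¹ • A ⊔ zpowers (z * (g⁻¹ * a * g)) with hHd
  have hH : H ≠ ⊤ := hC.h1 _ (hC.conj A hA _) _
  have hga : g⁻¹ * a * g ∈ cj g⁻¹ • A := by simpa using (conj_mem_cj (g := g⁻¹)).2 ha
  obtain ⟨zH, gH⟩ := mem_of_mul (H := H) hp hq eq hk (n := 1)
    (by rw [pow_one]; exact hC.pow_eq_one (hC.conj A hA _) hga)
    (mem_c1.1 (mem_c1_comm.1 (mul_mem (mul_mem (inv_mem (mem_c1_comm.1 (cent_le_c1 hg zY)))
      (mem_c1_comm.1 (cent_le_c1 ha zA))) (mem_c1_comm.1 (cent_le_c1 hg zY))))) (mem_sup_right (mem_zpowers _))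
  have hAH : A ≤ H := by
    have hB₁ : cj h⁻¹ • A ≤ H ⊓ (Y₁ ⊔ A) := le_inf le_sup_left (cj_le_of_mem le_sup_right (mem_sup_left (inv_mem hh)))
    have hZ := pgroup_zpowers hk
    have zY₁ : zpowers z ≤ N[Y₁] := zpowers_le.2 zN
    have zA' : zpowers z ≤ N[A] := zpowers_le.2 (cent_le_norm A zA)
    have hq' : ¬ q ∣ Nat.card ↥(H ⊓ (Y₁ ⊔ A)) := by
      rw [← isPiSubgroup_compl_singleton_iff_not_dvd hq]
      exact isPiSubgroup_inf_right (isPiSubgroup_sup' (isPiSubgroup_compl_of_isPGroup hY₁ (Ne.symm hqr))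
        (isPiSubgroup_compl_of_isPGroup hAp (Ne.symm eq)) nY₁)
    obtain ⟨B₀, hB₀, zB⟩ := coprime_Sylow_exists hp (le_norm_inf (le_norm_of_le (zpowers_le.2 zH))
      (le_norm_sup zY₁ zA')) (cop_np hq hZ hq') (Or.inl (sol_of_isPGroup hq hZ))
    have hS := sylow_sup hp hAp (np_of_pgroup hp hr er hY₁).2 nY₁
    have hS' := hS.of_card_le hB₀.isPGroup (hB₀.le.trans inf_le_right)
      ((card_cj h⁻¹ A).ge.trans (hB₀.card_le (pgroup_cj hAp _) hB₁))
    obtain ⟨t, ht, e⟩ := hS.exists_conj_eq hS'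
    obtain ⟨u, hu, a', ha', rfl⟩ := (mem_sup_norm nY₁).1 ht
    rw [cj_mul, cj_eq_self_of_mem ha'] at e
    obtain ⟨c, hc, n, hn, rfl⟩ := coprime_mem_sup_cent (N := Y₁ ⊓ C[A]) zY₁ inf_le_left
      (le_norm_inf zY₁ (le_norm_cent zA')) (cop_pq hq hr (Ne.symm hqr) hZ (hY₁.to_le inf_le_left))
      (Or.inl (sol_of_isPGroup hq hZ)) hu fun w hw => by
        rw [← coprime_norm_cent nY₁ (cop_pq hp hr er hAp hY₁)]
        refine mem_inf.2 ⟨mul_mem (inv_mem hu) (conj_mem_of_norm (zY₁ hw) hu), cj_eq_self_iff.1 ?_⟩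
        rw [cj_mul, cj_mul, cj_mul, cj_eq_self (inv_mem (zA' hw)), e, cj_eq_self (zB hw), ← e, cj_inv_cj]
    rw [cj_mul, cj_eq_self_of_mem_cent hn.2] at e
    rw [centralizer_zpowers] at hc
    have hAz : A ≤ C1[z] := le_c1_iff.2 zA
    have n2 : A ≤ N[Y₁ ⊓ C1[z]] := le_norm_inf nY₁ (le_norm_of_le hAz)
    have p2 : IsPGroup r ↥(Y₁ ⊓ C1[z]) := hY₁.to_le inf_le_left
    clear hu ht
    obtain ⟨u, hu, c', hc', rfl⟩ := coprime_cent_prod_mem n2 (cop_pq hp hr er hAp p2)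
      (Or.inr (sol_of_isPGroup hr p2)) hc
    rw [cj_mul, cj_eq_self_of_mem_cent hc'.2] at e
    obtain ⟨v, hv, d, hd, ev⟩ := coprime_cent_prod_mem nY (cop_pq hp hq eq hAp hY)
      (Or.inr (sol_of_isPGroup hq hY)) (inv_mem hg)
    have e2 : g⁻¹ * a * g = v * a * v⁻¹ := by
      rw [← inv_inv g, ev, inv_inv, mul_inv_rev, mul_assoc v d a, ← mem_cent.1 hd.2 a ha]; group
    have uH : u * a * u⁻¹ ∈ H := (hB₀.le (e ▸ conj_mem_cj.2 ha)).1
    obtain ⟨F, K, hG, hK⟩ := hC.h2 _ (hC.c1_ne_top z1)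
    have c1 := hG.comm_le_core hp hr er p2 inf_le_right (hK A hA hAz) n2
    have c2 := hG.comm_le_core hp hq eq hY (le_c1_iff.2 zY) (hK A hA hAz) nY
    have hs : u * (a * u⁻¹ * a⁻¹) ∈ pCoreOf r F :=
      c1 (mul_mem hu (conj_mem_of_norm (right_le_norm_comm _ _ ha) (inv_mem hu)))
    have ht : a * v * a⁻¹ * v⁻¹ ∈ pCoreOf q F :=
      c2 (mul_mem (conj_mem_of_norm (right_le_norm_comm _ _ ha) hv) (inv_mem hv))
    obtain ⟨m₁, hm₁⟩ := pow_of_pgroup (pCoreOf_isPGroup r F) hs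
    obtain ⟨m₂, hm₂⟩ := pow_of_pgroup (pCoreOf_isPGroup q F) ht
    obtain ⟨sH, -⟩ := mem_of_mul (H := H) hq hr (Ne.symm hqr) hm₁ hm₂
      (le_cent_iff.1 (core_cent_core hr hq (Ne.symm hqr) F) _ hs _ ht) (by
        have := mul_mem uH (inv_mem (e2 ▸ gH))
        convert this using 1; group)
    rw [← haA, zpowers_le]
    have := mul_mem (inv_mem sH) uH
    convert this using 1; group
  have hB₂ : cj g⁻¹ • A ≤ H := by
    rw [← haA, cj_zpowers, zpowers_le, inv_inv]; exact gH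
  obtain ⟨F, K, hG, hK⟩ := hC.h2 H hH
  exact cent_le_cent_mono
    (hC.D_le_core hA hq eq hY nY hg hG (hK A hA hAH) ((Core.D_le_sup A g).trans (sup_le hAH hB₂))).1
    (hC.D_le_core hA hr er hY₁ nY₁ hh hG (hK A hA hAH) ((Core.D_le_sup A h).trans (sup_le hAH le_sup_left))).1
    (core_cent_core hq hr hqr F)

end CL.F2C
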