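/-
Project F2C: lines through a member of `D` when no two members generate a `p`-group.
-/
import Cfsg.Agent.F2C.Asm

set_option autoImplicit false
set_option linter.unusedSectionVars false

open Cfsg CL.Grp CL.Odd Subgroup
open scoped Pointwise commutatorElement

namespace CL.F2C

universe u

variable {G : Type u} [Group G] [Finite G] {p q r : ℕ} {D : Set (Subgroup G)} {A B F H K R S T : Subgroup G} {n : G}

theorem Cl.conj (h : Cl q A S) (hn : n ∈ N[A]) : Cl q A (cj n • S) := by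
  refine ⟨pgroup_cj h.1 n, ?_, ?_⟩
  · rw [← cj_normalizer, ← cj_eq_self hn]; exact cj_mono n h.2.1
  · have h1 := norm_le_norm_cent A hn
    have := cj_mono n h.2.2
    rwa [cj_inf, cj_eq_self h1, cj_eq_self (normalizer_le_normalizer_pCoreOf q _ h1)] at this

theorem max_conj (h : Maximal (Cl q A) S) (hn : n ∈ N[A]) : Maximal (Cl q A) (cj n • S) :=
  ⟨h.prop.conj hn, fun _ hU hle =>
    le_cj_iff_cj_inv_le.2 (h.le_of_ge (hU.conj (inv_mem hn)) (cj_le_iff_le_cj_inv.1 hle))⟩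

namespace Core

variable (hC : Core p D) (hA : A ∈ D)
include hC hA

theorem n1 (hq : q.Prime) (eq : q ≠ p) (k : K2 q A) (t : TI q A) (hS : Maximal (Cl q A) S) (hne : ⁅S, A⁆ ≠ ⊥) :
    N[A] ≤ N[S] := fun n hn => by
  have : ¬ ∀ g ∈ S, Flv.D A g ≤ ⊥ := fun hc => hne (le_bot_iff.1 (Flv.comm_le_of_D hc))
  push Not at this
  obtain ⟨g, hg, h1⟩ := this
  have h1' : Flv.D A g ≠ ⊥ := fun e => h1 e.le
  obtain ⟨H, hH, h2, h3, h4⟩ := hC.k1 hA hq eq hS.prop.1 hS.prop.2.1 hg hn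
  obtain ⟨F, K, hG, hK⟩ := hC.h2 H hH
  have h5 := (hC.D_le_core hA hq eq hS.prop.1 hS.prop.2.1 hg hG (hK A hA h2) h3).2
  obtain ⟨U, hU, h6⟩ := exists_max (k.cl (pCoreOf_isPGroup q F) (h2.trans (hG.ncore q)))
  have h7 : n ∈ N[⁅pCoreOf q F, A⁆] := zpowers_le.1 (le_norm_comm (zpowers_le.2 (hG.ncore q h4)) (zpowers_le.2 hn))
  have h8 := Flv.D_le hg hS.prop.2.1
  rw [← cj_eq_self_iff, t _ U (max_conj hS hn) hU (ne_bot_of_le_ne_bot (mt cj_eq_bot.1 h1')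
    (le_inf (cj_mono n h8) ((cj_le_of_mem_norm h5 h7).trans h6))),
    t S U hS hU (ne_bot_of_le_ne_bot h1' (le_inf h8 (h5.trans h6)))]

/-- `A`-invariant subgroups `[X, A]` of coprime prime power orders in a proper subgroup commute. -/
theorem cent_of_le (hq : q.Prime) (hr : r.Prime) (eq : q ≠ p) (er : r ≠ p) (hqr : q ≠ r) (hH : H ≠ ⊤) (hAH : A ≤ H)
    (hR : IsPGroup q R) (hS : IsPGroup r S) (hRH : R ≤ H) (hSH : S ≤ H) (nR : A ≤ N[R]) (nS : A ≤ N[S]) :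
    ⁅R, A⁆ ≤ C[⁅S, A⁆] := by
  obtain ⟨F, K, hG, hK⟩ := hC.h2 H hH
  exact cent_le_cent_mono (hG.comm_le_core hC.pp hq eq hR hRH (hK A hA hAH) nR)
    (hG.comm_le_core hC.pp hr er hS hSH (hK A hA hAH) nS) (core_cent_core hq hr hqr F)

theorem u2 (hz : LZS.{u}) (hq : q.Prime) (hr : r.Prime) (eq : q ≠ p) (er : r ≠ p) (hqr : q ≠ r)
    (kr : K2 r A) (tr : TI r A) (hS : IsPGroup q S) (nS : A ≤ N[S]) (hR : R ≠ ⊥) (hRY : R ≤ ⁅S, A⁆) (nR : A ≤ N[R])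
    (hT : IsPGroup r T) (nT : A ≤ N[T]) (hc : ⁅T, A⁆ ≤ C[R]) : ⁅T, A⁆ ≤ C[⁅S, A⁆] := by
  have hAp := hC.pgroup hA
  have hY := pgroup_comm hS nS
  have nY : A ≤ N[⁅S, A⁆] := right_le_norm_comm _ _
  have eY := commGid hC.pp hq eq hAp hS nS
  have eT := commGid hC.pp hr er hAp hT nT
  by_cases hb : ⁅T, A⁆ = ⊥
  · rw [hb]; exact bot_le
  by_cases hZ : Z[⁅S, A⁆] ⊓ C[A] = ⊥
  · have hZp : IsPGroup q ↥Z[⁅S, A⁆] := hY.to_le inf_le_left
    have nZ : A ≤ N[Z[⁅S, A⁆]] := nY.trans (norm_le_norm_center _)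
    have eZ := coprime_cent_prod nZ (cop_pq hC.pp hq eq hAp hZp) (Or.inr (sol_of_isPGroup hq hZp))
    rw [hZ, sup_bot_eq] at eZ
    have h1 := hC.cent_of_le hA hq hr eq er hqr (hC.norm_ne_top' hq (hY.to_le hRY) hR) nR hZp (pgroup_comm hT nT)
      (le_norm_of_le_cent (inf_le_right.trans (cent_anti hRY))) (le_norm_of_le_cent hc) nZ (right_le_norm_comm _ _)
    rw [eZ, eT] at h1
    have h2 := hC.cent_of_le hA hr hq er eq hqr.symm (hC.norm_ne_top' hq hZp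
      (center_ne_bot_of_nil (nil_of_isPGroup hq hY) (ne_bot_of_le_ne_bot hR hRY))) nZ (pgroup_comm hT nT) hY
      (le_norm_of_le_cent (cent_symm h1)) (le_norm_of_le_cent (cent_symm inf_le_right)) (right_le_norm_comm _ _) nY
    rwa [eT, eY] at h2
  · obtain ⟨z, hz1, hz2⟩ := ne_bot_iff.1 hZ
    obtain ⟨U, hU, h1⟩ := exists_max (kr.cl hT nT)
    have h2 : ⁅T, A⁆ ≤ ⁅U, A⁆ := eT.ge.trans (commutator_mono h1 le_rfl)
    have h3 := hC.n1 hA hr er kr tr hU (ne_bot_of_le_ne_bot hb h2) (cent_le_norm A hz1.2)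
    have h4 := hz G p q r D hC hq hr eq er hqr A hA _ U z hY hU.prop.1 nY hU.prop.2.1 hz2
      (pow_of_pgroup hY hz1.1.1) hz1.1.2 hz1.2 h3
    rw [eY] at h4
    exact h2.trans h4

theorem w2 (hW : WP p D) (hG : Good p H F K) (hT : T ∈ D) (hAK : A ≤ K) (hTK : T ≤ K) : T ≤ ⁅F, A⁆ ⊔ A := by
  obtain ⟨u, hu, h1⟩ := hG.syl hC.pp (hC.pgroup hA) (hC.pgroup hT) hAK hTK
  have h2 := hW A hA _ (hC.conj T hT u) h1
  obtain ⟨y, hy, c, hc, e⟩ := coprime_cent_prod_mem ((hAK.trans hG.KH).trans hG.nF)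
    (cop_np hC.pp (hC.pgroup hA) hG.np.2) (Or.inr (sol_of_nil hG.np.1)) (inv_mem hu)
  rw [cj_eq_iff_eq_cj_inv.1 h2.symm, e, cj_mul, cj_eq_self_of_mem_cent hc.2]
  exact cj_le_of_mem le_sup_right (mem_sup_left hy)

end Core

theorem line (hz : LZS.{u}) : LineS.{u} := by
  intro G _ _ p D hC hW hk A hA B hB hne
  have hAp := hC.pgroup hA
  obtain ⟨F₀, K₀, hG₀, hK₀⟩ := hC.h2 _ (hC.sup_ne_top hA hB)
  have : ¬ ∀ q : ℕ, q.Prime → q ≠ p → ⁅pCoreOf q F₀, A⁆ ≤ ⊥ := fun hc => by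
    have h1 := hC.w2 hA hW hG₀ hB (hK₀ A hA le_sup_left) (hK₀ B hB le_sup_right)
    rw [le_bot_iff.1 (hG₀.np.comm_le hC.pp (le_sup_left.trans hG₀.nF) hc), bot_sup_eq] at h1
    exact hne (hC.eq_of_le hB hA h1).symm
  push Not at this
  obtain ⟨q, hq, eq, hR⟩ := this
  have hR' : ⁅pCoreOf q F₀, A⁆ ≠ ⊥ := fun e => hR e.le
  have nO : A ≤ N[pCoreOf q F₀] := le_sup_left.trans (hG₀.ncore q)
  obtain ⟨k, t⟩ := hk A hA q hq eq
  obtain ⟨S, hS, h1⟩ := exists_max (k.cl (pCoreOf_isPGroup q F₀) nO)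
  have h2 : ⁅pCoreOf q F₀, A⁆ ≤ ⁅S, A⁆ :=
    (commGid hC.pp hq eq hAp (pCoreOf_isPGroup q F₀) nO).ge.trans (commutator_mono h1 le_rfl)
  have hY := ne_bot_of_le_ne_bot hR' h2
  refine ⟨N[⁅S, A⁆], hC.norm_ne_top' hq (pgroup_comm hS.prop.1 hS.prop.2.1) hY,
    le_norm_comm (hC.n1 hA hq eq k t hS hY) le_rfl, fun T hT hH => ?_⟩
  obtain ⟨F, K, hG, hK⟩ := hC.h2 _ hH
  have hAH : A ≤ A ⊔ B ⊔ T := le_sup_left.trans le_sup_left
  have hAK := hK A hA hAH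
  have h3 : pCoreOf q F₀ ≤ pCoreOf q F := hG.le_core hC.pp hq eq (pCoreOf_isPGroup q F₀)
    ((pCoreOf_le q F₀).trans ((hG₀.FK.trans hG₀.KH).trans (sup_le hAK (hK B hB (le_sup_right.trans le_sup_left)))))
  refine (hC.w2 hA hW hG hT hAK (hK T hT le_sup_right)).trans (sup_le ?_ (right_le_norm_comm _ _))
  refine hG.np.comm_le hC.pp (hAH.trans hG.nF) fun r hr er => ?_
  have nr := hAH.trans (hG.ncore r)
  by_cases hqr : q = r
  · subst hqr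
    obtain ⟨U, hU, h4⟩ := exists_max (k.cl (pCoreOf_isPGroup q F) nr)
    rw [← t S U hS hU (ne_bot_of_le_ne_bot hR' (le_inf h1 ((commutator_mono h3 le_rfl).trans h4)))] at h4
    exact le_norm_of_le ((commGid hC.pp hq eq hAp (pCoreOf_isPGroup q F) nr).ge.trans (commutator_mono h4 le_rfl))
  · obtain ⟨kr, tr⟩ := hk A hA r hr er
    exact le_norm_of_le_cent (hC.u2 hA hz hq hr eq er hqr kr tr hS.prop.1 hS.prop.2.1 hR' h2 (right_le_norm_comm _ _)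
      (pCoreOf_isPGroup r F) nr (cent_le_cent_mono (comm_le_left nr) ((comm_le_left nO).trans h3)
        (core_cent_core hr hq (Ne.symm hqr) F)))

end CL.F2C
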