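/-
Project F2C: the induction reducing the main statement to the solvable step and the core.
-/
import Cfsg.Agent.F2C.Asm

set_option autoImplicit false

open Cfsg CL.Grp CL.Odd
open scoped Pointwise commutatorElement

namespace CL.F2C

universe u

namespace Mn

variable {G : Type u} [Group G] {p : ℕ} {x z : G} {H : Subgroup G}

theorem hyp_map {G' : Type u} [Group G'] (h : Hyp p x) (f : G →* G') (hf : Function.Surjective f) : Hyp p (f x) :=
  fun y => by
    obtain ⟨y, rfl⟩ := hf y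
    simpa only [Subgroup.map_sup, MonoidHom.map_zpowers] using (h y).map f

theorem hyp_conj (h : Hyp p x) (g : G) : Hyp p (g * x * g⁻¹) :=
  hyp_map h (MulAut.conj g).toMonoidHom (MulAut.conj g).surjective

theorem hyp_pow (h : Hyp p x) (hz : z ∈ Subgroup.zpowers x) : Hyp p z := fun y =>
  (h y).mono (sup_le_sup_right (Subgroup.zpowers_le.2 hz) _) (Subgroup.mem_sup_left (Subgroup.mem_zpowers z)) hz

theorem hyp_sub (h : Hyp p z) (hz : z ∈ H) : Hyp p (⟨z, hz⟩ : H) := fun y => by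
  have hL : Subgroup.zpowers z ⊔ Subgroup.zpowers (y : G) ≤ H :=
    sup_le (Subgroup.zpowers_le.2 hz) (Subgroup.zpowers_le.2 y.2)
  have m : z ∈ Subgroup.zpowers z ⊔ Subgroup.zpowers (y : G) := Subgroup.mem_sup_left (Subgroup.mem_zpowers z)
  have m' : (y : G) ∈ Subgroup.zpowers z ⊔ Subgroup.zpowers (y : G) := Subgroup.mem_sup_right (Subgroup.mem_zpowers _)
  exact (((qp_subtype_iff m).2 (h y)).map (Subgroup.inclusion hL)).mono
    (sup_le (Subgroup.zpowers_le.2 ⟨⟨z, m⟩, trivial, rfl⟩) (Subgroup.zpowers_le.2 ⟨⟨y, m'⟩, trivial, rfl⟩))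
    (Subgroup.mem_sup_left (Subgroup.mem_zpowers _)) (Subgroup.mem_zpowers _)

theorem good_bot (hp : p.Prime) (H : Subgroup G) : Good p H ⊥ ⊥ :=
  ⟨le_rfl, bot_le, le_top.trans (norm_eq_top_iff.2 inferInstance).ge, le_top.trans (norm_eq_top_iff.2 inferInstance).ge,
    ⟨inferInstance, by rw [Subgroup.card_bot, Nat.dvd_one]; exact hp.one_lt.ne'⟩, fun k hk => ⟨0, pow_mem hk _⟩⟩

variable [Finite G]

theorem exists_top (hp : p.Prime) (H : Subgroup G) :
    ∃ F K, Good p H F K ∧ ∀ F' K', Good p H F' K' → F' ≤ F ∧ K' ≤ K := by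
  obtain ⟨⟨F, K⟩, -, h⟩ := Finite.exists_le_maximal (p := fun a : Subgroup G × Subgroup G => Good p H a.1 a.2)
    (a := (⊥, ⊥)) (good_bot hp H)
  refine ⟨F, K, h.1, fun F' K' h' => ?_⟩
  have := h.2 (y := (F ⊔ F', K ⊔ K')) (h.1.sup hp h') ⟨le_sup_left, le_sup_left⟩
  exact ⟨le_sup_right.trans this.1, le_sup_right.trans this.2⟩

theorem qp_normal (hp : p.Prime) [hH : H.Normal] (h : Qp p z H) : Qp p z ⊤ := by
  obtain ⟨F, K, hG, hm⟩ := exists_top hp H
  obtain ⟨F', K', hG', hz⟩ := h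
  have k : ∀ g : G, cj g • F ≤ F ∧ cj g • K ≤ K := fun g => hm _ _ (by
    have := hG.map (MulAut.conj g).toMonoidHom
    rwa [← cj_eq_map g H, cj_eq_self ((norm_eq_top_iff.2 hH).ge trivial)] at this)
  exact ⟨F, K, ⟨hG.FK, le_top, fun g _ => mem_norm_of_cj_le (k g).1, fun g _ => mem_norm_of_cj_le (k g).2, hG.np,
    hG.pw⟩, (hm _ _ hG').2 hz⟩

theorem triv (hp : p.Prime) (fit : ∀ M : Subgroup G, M.Normal → Group.IsNilpotent M → M = ⊥) (h : Qp p z ⊤) :
    z = 1 := by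
  obtain ⟨F, K, hG, hz⟩ := h
  obtain rfl := fit F (norm_eq_top_iff.1 (top_le_iff.1 hG.nF)) hG.np.1
  obtain rfl := fit K (norm_eq_top_iff.1 (top_le_iff.1 hG.nK)) (nil_of_isPGroup hp (pgroup_of_pow hG.pw))
  exact hz

end Mn

open Mn in
theorem main (h2 : Solv2S.{u}) (hc : CoreS.{u}) : MainS.{u} := by
  intro G _ _ p x hp hx h
  induction hn : Nat.card G using Nat.strong_induction_on generalizing G with
  | _ n ih =>
  subst hn
  have := Fact.mk hp
  have sub : ∀ (H : Subgroup G) (z : G), H ≠ ⊤ → z ∈ H → (∃ n : ℕ, z ^ p ^ n = 1) → Hyp p z → Qp p z H :=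
    fun H z hH hz ⟨n, hn⟩ h => (qp_subtype_iff hz).1 (ih _ (by
      rw [← Subgroup.card_top (G := G)]
      exact lt_of_le_of_ne (Subgroup.card_le_of_le le_top) fun e => hH (Subgroup.eq_of_le_of_card_ge le_top e.ge))
      H _ ⟨n, Subtype.ext hn⟩ (hyp_sub h hz) rfl)
  have nrm : ∀ z : G, (∃ n : ℕ, z ^ p ^ n = 1) → Hyp p z → Subgroup.normalClosure {z} ≠ ⊤ → Qp p z ⊤ :=
    fun z hz h hM => qp_normal hp (sub _ z hM (Subgroup.subset_normalClosure rfl) hz h)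
  by_cases hM : Subgroup.normalClosure {x} = ⊤
  swap
  · exact nrm x hx h hM
  by_cases hF : fittingSubgroup G = ⊥
  swap
  · obtain ⟨V, r, hr, hV, -, hE⟩ := exists_minNormal_abelem (H := ⊤) (W := fittingSubgroup G)
      (norm_eq_top_iff.2 inferInstance).ge hF (sol_of_nil (fittingSubgroup_isNilpotent G))
    have := norm_eq_top_iff.1 (top_le_iff.1 hV.2.1)
    refine h2 G p r x V hp hr hx h hM hE.1 (fun v => ⟨1, by rw [pow_one]; exact Subtype.ext (hE.2 v v.2)⟩)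
      (ih _ ?_ (G ⧸ V) _ (hx.imp fun n hn => by rw [← map_pow, hn, map_one])
        (hyp_map h _ (QuotientGroup.mk'_surjective V)) rfl)
    rw [Subgroup.card_eq_card_quotient_mul_card_subgroup V]
    exact lt_mul_of_one_lt_right Nat.card_pos (V.one_lt_card_iff_ne_bot.2 hV.1)
  have fit : ∀ M : Subgroup G, M.Normal → Group.IsNilpotent M → M = ⊥ := fun M _ hN =>
    le_bot_iff.1 (hF ▸ le_fittingSubgroup hN)
  by_cases x1 : x = 1
  · exact ⟨⊥, ⊥, good_bot hp ⊤, x1⟩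
  obtain ⟨n, hn⟩ := hx
  obtain ⟨⟨z, hz⟩, ho⟩ := exists_prime_orderOf_dvd_card' p
    (dvd_card_of_isPGroup_ne_bot (pgroup_zpowers hn) (mt Subgroup.zpowers_eq_bot.1 x1))
  rw [Subgroup.orderOf_mk] at ho
  have hz' := hyp_pow h hz
  have oc : ∀ g : G, orderOf (g * z * g⁻¹) = p := fun g => ((MulAut.conj g).orderOf_eq z).trans ho
  have pw : ∀ g : G, ∃ n : ℕ, (g * z * g⁻¹) ^ p ^ n = 1 := fun g => ⟨1, by rw [pow_one, ← oc g, pow_orderOf_eq_one]⟩
  have ne : ∀ g : G, g * z * g⁻¹ ≠ 1 := fun g e => hp.one_lt.ne (by rw [← oc g, e, orderOf_one])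
  have hN : Subgroup.normalClosure {z} = ⊤ := by
    by_contra k
    exact ne 1 (by simpa using triv hp fit (nrm z (by simpa using pw 1) hz' k))
  refine (hc G p (Set.range fun g : G => Subgroup.zpowers (g * z * g⁻¹)) ⟨hp, Set.range_nonempty _, ?_, ?_, ?_, ?_, fit,
    ?_, fun H hH => ?_⟩).elim
  · rintro _ ⟨g, rfl⟩
    rw [Nat.card_zpowers, oc]
  · rintro _ ⟨g, rfl⟩ k
    exact ⟨k * g, by rw [cj_zpowers]; congr 1; group⟩
  · rintro _ ⟨g, rfl⟩ _ ⟨k, rfl⟩
    exact ⟨k * g⁻¹, by rw [cj_zpowers]; congr 1; group⟩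
  · rw [eq_top_iff, ← hN, Subgroup.normalClosure, Subgroup.closure_le]
    intro a ha
    obtain ⟨b, e, hb⟩ := Group.mem_conjugatesOfSet_iff.1 ha
    obtain ⟨g, rfl⟩ := isConj_iff.1 ((e : b = z) ▸ hb : IsConj z a)
    exact le_sSup (s := Set.range fun g : G => Subgroup.zpowers (g * z * g⁻¹)) ⟨g, rfl⟩ (Subgroup.mem_zpowers _)
  · rintro _ ⟨g, rfl⟩ y e
    exact ne g (triv hp fit (e ▸ hyp_conj hz' g y))
  · obtain ⟨F, K, hG, hm⟩ := exists_top hp H
    refine ⟨F, K, hG, ?_⟩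
    rintro _ ⟨g, rfl⟩ hA
    obtain ⟨F', K', hG', hk⟩ := sub H _ hH (hA (Subgroup.mem_zpowers _)) (pw g) (hyp_conj hz' g)
    exact Subgroup.zpowers_le.2 ((hm _ _ hG').2 hk)

end CL.F2C
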