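/-
Project F2C: the solvable case, first step.
-/
import Cfsg.Agent.F2C.Asm

set_option autoImplicit false

open Cfsg CL.Grp CL.Odd
open scoped Pointwise commutatorElement

namespace CL.F2C

universe u

namespace Solv1a

variable {G : Type u} [Group G] {p q : ℕ} {x : G} {V M R : Subgroup G}

/-- `[⟨x, z⟩, x]` -/
abbrev J (x z : G) : Subgroup G := ⁅Subgroup.zpowers x ⊔ Subgroup.zpowers z, Subgroup.zpowers x⁆

theorem syl [Finite G] (hq : q.Prime) [V.Normal] (hV : ¬ q ∣ Nat.card V) (hR : IsPGroup q R) :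
    IsSylowIn q R (V ⊔ R) := by
  have := Fact.mk hq
  refine isSylowIn_of_maximal le_sup_right hR fun U h1 h2 h3 => ?_
  rw [← inf_eq_left.2 h3, inf_sup_dedekind' (.inl Subgroup.le_normalizer_of_normal) h2,
    (Subgroup.disjoint_of_coprime_natCard (cop_np hq h1 hV)).eq_bot, bot_sup_eq]

theorem step [Finite G] (hp : p.Prime) (hq : q.Prime) (e : q ≠ p) (h : Hyp p x) [V.Normal] [M.Normal]
    (hM : ∀ y ∈ M, ∃ k : ℕ, y ^ q ^ k ∈ V) {z : G} (hz : z ∈ M) :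
    ∃ R : Subgroup G, IsPGroup q R ∧ x ∈ N[R] ∧ z ∈ N[R] ∧ R ≤ J x z ∧ V ⊔ R = V ⊔ J x z := by
  have := Fact.mk hq
  obtain ⟨F, K, hG, hx⟩ := h z
  have h1 : J x z ≤ K := hG.comm_le_K le_rfl (Subgroup.zpowers_le.2 hx)
  have h2 : J x z ≤ M := comm_sup_left_le Subgroup.le_normalizer_of_normal
    ((Subgroup.commutator_eq_bot_iff_le_centralizer.2 (le_cent_of_abelian (abelian_zpowers x) le_rfl le_rfl)).le.trans
      bot_le) ((Subgroup.commutator_mono (Subgroup.zpowers_le.2 hz) le_rfl).trans (Subgroup.commutator_le_left _ _))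
  have h3 := le_norm_inf (left_le_norm_comm _ (Subgroup.zpowers x)) (hG.ncore q)
  refine ⟨J x z ⊓ pCoreOf q F, (pCoreOf_isPGroup q F).to_inf_right,
    h3 (Subgroup.mem_sup_left (Subgroup.mem_zpowers x)), h3 (Subgroup.mem_sup_right (Subgroup.mem_zpowers z)),
    inf_le_left, le_antisymm (sup_le_sup_left inf_le_left _) (sup_le le_sup_left fun j hj => ?_)⟩
  obtain ⟨S, hS⟩ := exists_isSylowIn q (J x z)
  obtain ⟨n, hn⟩ := relIndex_eq_pow_of_pow_mem (U := J x z) (V := V) hq Subgroup.le_normalizer_of_normal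
    fun y hy => hM y (h2 hy)
  obtain ⟨v, hv, s, hs, rfl⟩ := hS.exists_mul_eq_of_relIndex_pow hn hj
  exact mul_mem (Subgroup.mem_sup_left hv)
    (Subgroup.mem_sup_right ⟨hS.le hs, hG.le_core hp hq e hS.isPGroup (hS.le.trans h1) hs⟩)

theorem J_le [V.Normal] {z z' : G} (h : z⁻¹ * z' ∈ V) : V ⊔ J x z' ≤ V ⊔ J x z := by
  have h1 : Subgroup.zpowers x ⊔ Subgroup.zpowers z' ≤ V ⊔ (Subgroup.zpowers x ⊔ Subgroup.zpowers z) :=
    sup_le (le_sup_left.trans le_sup_right) (Subgroup.zpowers_le.2 (by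
      simpa using mul_mem (Subgroup.mem_sup_right (Subgroup.mem_sup_right (Subgroup.mem_zpowers z)))
        (Subgroup.mem_sup_left (T := Subgroup.zpowers x ⊔ Subgroup.zpowers z) h)))
  have h2 : V ⊔ (Subgroup.zpowers x ⊔ Subgroup.zpowers z) ≤ N[V ⊔ J x z] :=
    sup_le (le_norm_of_le le_sup_left) (le_norm_sup Subgroup.le_normalizer_of_normal (left_le_norm_comm _ _))
  exact sup_le le_sup_left ((Subgroup.commutator_mono h1 le_rfl).trans (comm_sup_left_le h2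
    ((Subgroup.commutator_le_left _ _).trans le_sup_left) le_sup_right))

end Solv1a

open Solv1a in
theorem solv1 : Solv1S.{u} := by
  intro G _ _ p q x V M hp hq e h _ _ hV hc hVM hM y hy
  have := Fact.mk hq
  obtain ⟨R, r1, r2, r3, r4, r5⟩ := step hp hq e h hM hy
  have nV : ∀ {H : Subgroup G}, H ≤ N[V] := fun {_} => Subgroup.le_normalizer_of_normal
  have cop := cop_np hq r1 hc
  have dp := coprime_abelian_cent_dprod nV cop hV
  have le1 : ⁅V, R⁆ ≤ V := comm_le_left nV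
  have n1 : N[R] ≤ N[⁅V, R⁆] := le_norm_comm nV le_rfl
  have triv : ∀ w ∈ ⁅V, R⁆, w ∈ N[R] → w = 1 := fun w h1 h2 =>
    Subgroup.mem_bot.1 (dp.inf_eq.le ⟨h1, (coprime_norm_cent nV cop).le ⟨le1 h1, h2⟩⟩)
  have key : ∀ v ∈ ⁅V, R⁆, ∃ w ∈ ⁅V, R⁆ ⊓ C1[x], v = y⁻¹ * w * y * w⁻¹ := fun v hv => by
    obtain ⟨R', s1, s2, s3, -, s5⟩ := step hp hq e h hM (mul_mem hy (hVM (le1 hv)))
    have e1 : V ⊔ R' = V ⊔ R := by
      rw [r5, s5]
      exact le_antisymm (J_le (by simpa using le1 hv)) (J_le (by simpa using le1 hv))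
    obtain ⟨t, ht, e2⟩ := (syl hq hc r1).exists_conj_eq (e1 ▸ syl hq hc s1)
    obtain ⟨a, ha, r, hr, rfl⟩ := (mem_sup_norm nV).1 ht
    obtain ⟨w, hw, c, hc', rfl⟩ := (mem_sup_norm (dp.cent.trans (cent_le_norm _))).1 (dp.sup_eq.ge ha)
    have e3 : cj w • R = R' := by
      rw [← e2]
      change _ = cj (w * c * r) • R
      rw [cj_mul, cj_mul, cj_eq_self (le_norm_self R hr), cj_eq_self_of_mem_cent hc'.2]
    rw [← e3, ← cj_normalizer, mem_cj] at s2 s3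
    have k1 := triv (w⁻¹ * (x * w * x⁻¹)) (mul_mem (inv_mem hw) (conj_mem_of_norm (n1 r2) hw))
      (by simpa [mul_assoc] using mul_mem s2 (inv_mem r2))
    have k2 := triv (w⁻¹ * (y * (v * w) * y⁻¹)) (mul_mem (inv_mem hw) (conj_mem_of_norm (n1 r3) (mul_mem hv hw)))
      (by simpa [mul_assoc] using mul_mem s3 (inv_mem r3))
    rw [inv_mul_eq_one] at k1 k2
    refine ⟨w, ⟨hw, mem_c1.2 ?_⟩, ?_⟩
    · rw [eq_mul_inv_iff_mul_eq] at k1; exact k1
    · rw [eq_mul_inv_iff_mul_eq] at k2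
      rw [mul_assoc y⁻¹, k2]; group
  have h1 : ⁅V, R⁆ ≤ C1[x] := by
    refine inf_eq_left.1 (Subgroup.eq_of_le_of_card_ge inf_le_left (Nat.card_le_card_of_surjective
      (fun w : ↥(⁅V, R⁆ ⊓ C1[x]) => (⟨y⁻¹ * w * y * (w : G)⁻¹,
        mul_mem (conj_mem_of_norm' (n1 r3) w.2.1) (inv_mem w.2.1)⟩ : ↥⁅V, R⁆)) fun v => ?_))
    obtain ⟨w, hw, e⟩ := key v v.2
    exact ⟨⟨w, hw⟩, Subtype.ext e.symm⟩
  have h2 : J x y ≤ C[⁅V, R⁆] :=
    (Subgroup.commutator_mono le_rfl (Subgroup.zpowers_le.2 (Subgroup.mem_centralizer_iff.2 fun v hv =>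
      mem_c1.1 (h1 hv)))).trans (comm_le_right
      (le_norm_cent (sup_le (Subgroup.zpowers_le.2 (n1 r2)) (Subgroup.zpowers_le.2 (n1 r3)))))
  have h3 : R ≤ C[V] := by
    refine cent_symm ?_
    rw [← dp.sup_eq]
    exact sup_le (cent_symm (r4.trans h2)) inf_le_right
  exact sup_le (le_cent_of_abelian hV le_rfl le_rfl) h3 (r5.ge (Subgroup.mem_sup_right (by
    rw [← commutatorElement_inv]
    exact inv_mem (Subgroup.commutator_mem_commutator (Subgroup.mem_sup_right (Subgroup.mem_zpowers y))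
      (Subgroup.mem_zpowers x)))))

end CL.F2C
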