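/-
Project F2C: lifting `Qp` through an abelian normal `r`-subgroup.
-/
import Cfsg.Agent.F2C.Asm
import Mathlib.GroupTheory.Transfer

set_option autoImplicit false

open Cfsg CL.Grp CL.Odd
open scoped Pointwise commutatorElement

namespace CL.F2C

universe u

namespace Solv2

/-- in a group normally generated by a `p`-element, with `q` not dividing the index of the centre,
`q`-elements are trivial. -/
theorem triv {G : Type u} [Group G] [Finite G] {p q n k : ℕ} (hp : p.Prime) (hq : q.Prime) (e : q ≠ p) {x y : G}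
    (hx : x ^ p ^ n = 1) (hgen : Subgroup.normalClosure {x} = ⊤) (hm : ¬ q ∣ (Subgroup.center G).index)
    (hy : y ^ q ^ k = 1) : y = 1 := by
  let ψ : G →* Subgroup.center G := MonoidHom.mk' (fun g => MonoidHom.transferCenterPow G g ^ p ^ n) fun a b => by
    rw [map_mul, Commute.mul_pow]
    exact Subtype.ext (Subgroup.mem_center_iff.1 (MonoidHom.transferCenterPow G b).2 _)
  have hψ : ∀ g : G, ((ψ g : Subgroup.center G) : G) = g ^ ((Subgroup.center G).index * p ^ n) := fun g => by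
    rw [pow_mul]; rfl
  have hk : ψ.ker = ⊤ := by
    rw [eq_top_iff, ← hgen]
    refine Subgroup.normalClosure_le_normal ?_
    rintro _ rfl
    refine Subtype.ext ?_
    rw [hψ, mul_comm, pow_mul, hx, one_pow]; rfl
  have h1 : y ^ ((Subgroup.center G).index * p ^ n) = 1 := by
    rw [← hψ, (MonoidHom.mem_ker.1 (hk.ge (Subgroup.mem_top y)))]; rfl
  have hc : (q ^ k).Coprime ((Subgroup.center G).index * p ^ n) :=
    Nat.Coprime.pow_left _ (Nat.Coprime.mul_right ((Nat.Prime.coprime_iff_not_dvd hq).2 hm)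
      (Nat.Coprime.pow_right _ ((Nat.coprime_primes hq hp).2 e)))
  exact orderOf_eq_one_iff.1 (Nat.eq_one_of_dvd_coprimes hc (orderOf_dvd_of_pow_eq_one hy)
    (orderOf_dvd_of_pow_eq_one h1))

/-- a normal subgroup `M` of `q'`-index whose commutators with `x` lie in `C`: its `q`-elements lie in `C`. -/
theorem mem_of_comm {G : Type u} [Group G] [Finite G] {p q n k : ℕ} (hp : p.Prime) (hq : q.Prime) (e : q ≠ p) {x y : G}
    {C M : Subgroup G} [C.Normal] [hM : M.Normal] (hx : x ^ p ^ n = 1) (hgen : Subgroup.normalClosure {x} = ⊤)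
    (hm : ¬ q ∣ M.index) (hc : ∀ z ∈ M, ⁅x, z⁆ ∈ C) (hy : y ^ q ^ k = 1) : y ∈ C := by
  let π := QuotientGroup.mk' C
  have hπ : Function.Surjective π := QuotientGroup.mk'_surjective C
  have hgen' : Subgroup.normalClosure {π x} = ⊤ := by
    rw [← Set.image_singleton, ← Subgroup.map_normalClosure _ _ hπ, hgen, Subgroup.map_top_of_surjective _ hπ]
  have : (M.map π).Normal := hM.map π hπ
  have hcen : C[M.map π] = ⊤ := by
    rw [eq_top_iff, ← hgen']
    refine Subgroup.normalClosure_le_normal ?_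
    rintro _ rfl
    refine Subgroup.mem_centralizer_iff.2 ?_
    rintro _ ⟨z, hz, rfl⟩
    have h1 : π ⁅x, z⁆ = 1 := (QuotientGroup.eq_one_iff _).2 (hc z hz)
    rw [map_commutatorElement, commutatorElement_eq_one_iff_mul_comm] at h1
    exact h1.symm
  have hle : M ≤ (Subgroup.center (G ⧸ C)).comap π := fun z hz =>
    Subgroup.mem_center_iff.2 fun g =>
      (Subgroup.mem_centralizer_iff.1 (hcen.ge (Subgroup.mem_top g)) _ ⟨z, hz, rfl⟩).symm
  have hm' : ¬ q ∣ (Subgroup.center (G ⧸ C)).index := fun hd => hm (by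
    rw [← Subgroup.index_comap_of_surjective _ hπ] at hd
    exact hd.trans (Subgroup.index_dvd_of_le hle))
  refine (QuotientGroup.eq_one_iff y).1 (triv (n := n) (k := k) hp hq e ?_ hgen' hm' ?_)
  · rw [← map_pow, hx, map_one]
  · change π y ^ q ^ k = 1
    rw [← map_pow, hy, map_one]

end Solv2

theorem solv2 (h1 : Solv1S.{u}) : Solv2S.{u} := by
  intro G _ _ p r x V hVn hp hr ⟨n, hx⟩ hH hgen hV hVr ⟨Fb, Kb, hG, hxK⟩
  set π := QuotientGroup.mk' V with hπ
  have hKn : Kb.Normal := norm_eq_top_iff.1 (top_le_iff.1 hG.nK)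
  have hFn : Fb.Normal := norm_eq_top_iff.1 (top_le_iff.1 hG.nF)
  have hK : Kb.comap π = ⊤ := by
    rw [eq_top_iff, ← hgen]
    exact Subgroup.normalClosure_le_normal (by rintro _ rfl; exact hxK)
  have pw : ∀ g ∈ (⊤ : Subgroup G), ∃ n : ℕ, g ^ p ^ n ∈ Fb.comap π := fun g hg => by
    obtain ⟨m, hm⟩ := hG.pw (π g) (hK.ge hg)
    exact ⟨m, by rwa [Subgroup.mem_comap, map_pow]⟩
  have nF : ⊤ ≤ N[Fb.comap π] := (norm_eq_top_iff.2 inferInstance).ge
  refine ⟨_, ⊤, good_of_nil hp le_top le_rfl nF (le_norm_self _) ?_ pw, Subgroup.mem_top _⟩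
  refine nil_of_sylow_normal fun q hq _ => ?_
  have := Fact.mk hq
  obtain ⟨Q, hQ⟩ := exists_isSylowIn (p := q) (Fb.comap π)
  refine ⟨Q, hQ, ?_⟩
  have : (pCoreOf q Fb).Normal :=
    norm_eq_top_iff.1 (top_le_iff.1 (hG.nF.trans (normalizer_le_normalizer_pCoreOf q Fb)))
  obtain ⟨M, hM⟩ : ∃ M : Subgroup G, M = (pCoreOf q Fb).comap π := ⟨_, rfl⟩
  have hMn : M.Normal := by rw [hM]; infer_instance
  have hQM : Q ≤ M := hM ▸ Subgroup.map_le_iff_le_comap.1
    (le_pCoreOf_of_isNilpotent hG.np.1 (hQ.isPGroup.map π) (Subgroup.map_le_iff_le_comap.2 hQ.le))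
  have hMF : M ≤ Fb.comap π := hM ▸ Subgroup.comap_mono (pCoreOf_normalIn q Fb).le
  have hVM : V ≤ M := fun v hv => by
    have : π v = 1 := (QuotientGroup.eq_one_iff v).2 hv
    rw [hM, Subgroup.mem_comap, this]; exact one_mem _
  have hMp : ∀ y ∈ M, ∃ k : ℕ, y ^ q ^ k ∈ V := fun y hy => by
    obtain ⟨k, hk⟩ := pow_of_pgroup (pCoreOf_isPGroup q Fb) (Subgroup.mem_comap.1 (hM ▸ hy))
    exact ⟨k, (QuotientGroup.eq_one_iff _).1 (by rw [← map_pow] at hk; exact hk)⟩
  suffices h : M ≤ N[Q] by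
    have : pCoreOf q M = Q := hQ.eq_of_le (pCoreOf_isPGroup q M) (le_pCoreOf hQM h hQ.isPGroup)
      ((pCoreOf_normalIn q M).le.trans hMF)
    rw [← this]
    exact le_top.trans ((norm_eq_top_iff.2 hMn).ge.trans (normalizer_le_normalizer_pCoreOf q M))
  suffices h : V ≤ N[Q] by
    obtain ⟨m, hm⟩ := relIndex_eq_pow_of_pow_mem hq (U := M) (V := V)
      (le_top.trans (norm_eq_top_iff.2 hVn).ge) hMp
    intro y hy
    obtain ⟨v, hv, s, hs, rfl⟩ := (hQ.of_le hQM hMF).exists_mul_eq_of_relIndex_pow hm hy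
    exact mul_mem (h hv) (le_norm_self _ hs)
  by_cases hqr : q = r
  · subst hqr
    have : M = Q := hQ.eq_of_le (pgroup_of_pow fun y hy => by
      obtain ⟨k, hk⟩ := hMp y hy
      obtain ⟨l, hl⟩ := pow_of_pgroup hVr hk
      exact ⟨k + l, by rw [pow_add, pow_mul, hl]⟩) hQM hMF
    exact hVM.trans (this.le.trans (le_norm_self _))
  by_cases e : q = p
  · subst e
    have hb : pCoreOf q Fb = ⊥ := by
      by_contra hne
      exact hG.np.2 ((dvd_card_of_isPGroup_ne_bot (pCoreOf_isPGroup q Fb) hne).trans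
        (Subgroup.card_dvd_of_le (pCoreOf_normalIn q Fb).le))
    have hQV : Q ≤ V := fun y hy => by
      have := hQM hy
      rw [hM, hb, Subgroup.mem_comap, Subgroup.mem_bot] at this
      exact (QuotientGroup.eq_one_iff y).1 this
    exact le_norm_of_le_cent (le_cent_of_abelian hV le_rfl hQV)
  have := Fact.mk hr
  have hqV : ¬ q ∣ Nat.card V := fun hd => hqr (eq_of_prime_dvd_card_isPGroup hVr hq hd)
  have hc := h1 G p q x V M hp hq e hH hVn hMn hV hqV hVM hMp
  have hm : ¬ q ∣ M.index := by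
    obtain ⟨m, hm⟩ := relIndex_eq_pow_of_pow_mem hp nF pw
    rw [Subgroup.relIndex_top_right] at hm
    rw [← Subgroup.relIndex_mul_index hMF, hm, hq.dvd_mul, not_or]
    exact ⟨hQ.not_dvd_relIndex_of_le hQM hMF,
      fun hd => e ((Nat.prime_dvd_prime_iff_eq hq hp).1 (hq.dvd_of_dvd_pow hd))⟩
  refine le_norm_of_le_cent (cent_symm fun y hy => ?_)
  obtain ⟨k, hk⟩ := pow_of_pgroup hQ.isPGroup hy
  exact Solv2.mem_of_comm hp hq e hx hgen hm hc hk

end CL.F2C
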