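/-
Project F2C: two commuting members of `D` force `W(A)` to be nilpotent.
-/
import Cfsg.Agent.F2C.Asm

set_option autoImplicit false
set_option linter.unusedSectionVars false

open Cfsg CL.Grp CL.Odd Subgroup
open scoped Pointwise commutatorElement

namespace CL.F2C

universe u

variable {G : Type u} [Group G] [Finite G] {p q r : ℕ} {D : Set (Subgroup G)} {A B H R S : Subgroup G} {e : G}

/-- the situation of step E. -/
structure SE (p : ℕ) (D : Set (Subgroup G)) (A B : Subgroup G) : Prop where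
  C : Core p D
  hA : A ∈ D
  hB : B ∈ D
  ne : A ≠ B
  cent : B ≤ C[A]

/-- special data. -/
structure Sp (q : ℕ) (A B : Subgroup G) (e : G) (R : Subgroup G) : Prop where
  mem : e ∈ A ⊔ B
  nmem : e ∉ A
  pg : IsPGroup q R
  norm : A ⊔ B ≤ N[R]
  cent : R ≤ C1[e]

namespace SE

variable (h : SE p D A B)
include h

theorem ab : IsMulCommutative ↥(A ⊔ B) := abelian_sup (h.C.abelian h.hA) (h.C.abelian h.hB) h.cent

theorem pg : IsPGroup p ↥(A ⊔ B) := pgroup_sup (h.C.pgroup h.hA) (h.C.pgroup h.hB) (le_norm_of_le_cent h.cent)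

theorem nA : A ⊔ B ≤ N[A] := le_norm_of_abelian h.ab le_rfl le_sup_left

theorem le_c1 (he : e ∈ A ⊔ B) : A ⊔ B ≤ C1[e] := (abelian_iff.1 h.ab).trans (cent_le_c1 he)

theorem pow (he : e ∈ A ⊔ B) : e ^ p = 1 := by
  obtain ⟨a, ha, b, hb, rfl⟩ := (mem_sup_norm (le_norm_of_le_cent h.cent)).1 he
  rw [Commute.mul_pow (mem_cent.1 (h.cent hb) a ha), h.C.pow_eq_one h.hA ha, h.C.pow_eq_one h.hB hb, mul_one]

theorem le_sup (he : e ∈ A ⊔ B) (hn : e ∉ A) : A ⊔ B ≤ A ⊔ zpowers e := by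
  obtain ⟨a, ha, b, hb, rfl⟩ := (mem_sup_norm (le_norm_of_le_cent h.cent)).1 he
  have hb1 : b ≠ 1 := by rintro rfl; exact hn (by simpa using ha)
  refine sup_le le_sup_left ?_
  rw [← h.C.zpowers_eq h.hB hb hb1, zpowers_le]
  simpa using mul_mem (inv_mem (mem_sup_left ha)) (mem_sup_right (S := A) (mem_zpowers (a * b)))

theorem ncyc : ¬ IsCyclic ↥(A ⊔ B) := fun hc => by
  obtain ⟨e, he⟩ := cyclic_iff.1 hc
  have h1 : Nat.card ↥(A ⊔ B) ≤ p := by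
    rw [← he, Nat.card_zpowers]
    exact orderOf_le_of_pow_eq_one h.C.pp.pos (h.pow (he ▸ mem_zpowers e))
  have h2 : A = A ⊔ B := eq_of_le_of_card_ge le_sup_left (by rwa [h.C.card A h.hA])
  exact h.ne (h.C.eq_of_le h.hB h.hA (le_sup_right.trans h2.ge)).symm

theorem e2 (hq : q.Prime) (hr : r.Prime) (eq : q ≠ p) (er : r ≠ p) {e₁ e₂ h₁ h₂ : G} {R₁ R₂ : Subgroup G}
    (s₁ : Sp q A B e₁ R₁) (s₂ : Sp r A B e₂ R₂) (m₁ : h₁ ∈ R₁) (m₂ : h₂ ∈ R₂) :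
    ∃ H : Subgroup G, H ≠ ⊤ ∧ A ⊔ B ≤ H ∧ Flv.D A h₁ ≤ H ∧ Flv.D A h₂ ≤ H := by
  have n₁ : A ≤ N[R₁] := le_sup_left.trans s₁.norm
  have n₂ : A ≤ N[R₂] := le_sup_left.trans s₂.norm
  by_cases hz : e₂ ∈ zpowers e₁
  · refine ⟨C1[e₂], h.C.c1_ne_top (fun e => s₂.nmem (e ▸ one_mem A)), h.le_c1 s₂.mem,
      (Flv.D_le m₁ n₁).trans (s₁.cent.trans ?_), (Flv.D_le m₂ n₂).trans s₂.cent⟩
    rw [← centralizer_zpowers]; exact cent_le_c1 hz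
  obtain ⟨-, d₁, hd₁, -, k₁⟩ := h.C.decomp h.hA hq eq s₁.pg n₁ m₁
  obtain ⟨-, d₂, hd₂, -, k₂⟩ := h.C.decomp h.hA hr er s₂.pg n₂ m₂
  have hd₁' := Flv.D_le m₁ n₁ hd₁
  have hd₂' := Flv.D_le m₂ n₂ hd₂
  obtain ⟨a, ha, e', he', rfl⟩ := (mem_sup_norm ((zpowers_le.2 s₁.mem).trans h.nA)).1
    (h.le_sup s₁.mem s₁.nmem s₂.mem)
  have ha1 : a ≠ 1 := by rintro rfl; exact hz (by simpa using he')
  set H := cj d₁⁻¹ • A ⊔ zpowers (d₂ * (a * e')) with hH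
  obtain ⟨m, hm⟩ := pow_of_pgroup s₂.pg hd₂'
  obtain ⟨x1, x2⟩ := mem_of_mul (H := H) h.C.pp hr er hm (n := 1) (by rw [pow_one]; exact h.pow s₂.mem)
    (mem_c1.1 (s₂.cent hd₂')) (mem_sup_right (mem_zpowers _))
  have hw : d₁⁻¹ * (a⁻¹ * d₁ * a) ∈ R₁ := mul_mem (inv_mem hd₁') (conj_mem_of_norm' (n₁ ha) hd₁')
  obtain ⟨k, hk⟩ := pow_of_pgroup s₁.pg hw
  have he'E : e' ∈ A ⊔ B := zpowers_le.2 s₁.mem he'
  have x3 : d₁⁻¹ * a * d₁⁻¹⁻¹ ∈ H := mem_sup_left (conj_mem_cj.2 ha)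
  obtain ⟨-, x4⟩ := mem_of_mul (H := H) h.C.pp hq eq hk (n := 1) (by rw [pow_one]; exact h.pow he'E)
    (mem_c1.1 (cent_le_c1 he' (by rw [centralizer_zpowers]; exact s₁.cent hw))) (by
      have := mul_mem (inv_mem x3) x2
      convert this using 1; group)
  have hAH : A ≤ H := by
    rw [← h.C.zpowers_eq h.hA ha ha1, zpowers_le]; simpa using mul_mem x2 (inv_mem x4)
  exact ⟨H, h.C.h1 _ (h.C.conj A h.hA _) _, (h.le_sup s₂.mem s₂.nmem).trans (sup_le hAH (zpowers_le.2 x2)),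
    k₁.trans (sup_le hAH le_sup_left), k₂.trans (sup_le hAH (cj_le_of_mem hAH (inv_mem x1)))⟩

theorem sp (hS : IsPGroup q S) (hn : A ⊔ B ≤ N[S]) (he : e ∈ A ⊔ B) (hA : e ∉ A) : Sp q A B e (S ⊓ C1[e]) :=
  ⟨he, hA, hS.to_le inf_le_left, le_norm_inf hn (le_norm_c1_of_le_c1 (h.le_c1 he)), inf_le_right⟩

theorem good (hH : H ≠ ⊤) (hE : A ⊔ B ≤ H) : ∃ F K, Good p H F K ∧ A ⊔ B ≤ K :=
  let ⟨F, K, hG, hD⟩ := h.C.h2 H hH
  ⟨F, K, hG, sup_le (hD A h.hA (le_sup_left.trans hE)) (hD B h.hB (le_sup_right.trans hE))⟩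

theorem c1_eq (he : e ∈ A) (h1 : e ≠ 1) : C1[e] = C[A] := by
  rw [← centralizer_zpowers, h.C.zpowers_eq h.hA he h1]

theorem e1 (hq : q.Prime) (eq : q ≠ p) (k : K2 q (A ⊔ B)) (hR : IsPGroup q R) (hn : A ≤ N[R]) {g : G} (hg : g ∈ R)
    (hne : Flv.D A g ≠ ⊥) : ∃ S e R' g', Maximal (Cl q (A ⊔ B)) S ∧ Sp q A B e R' ∧ g' ∈ R' ∧ Flv.D A g ≤ S ∧
      Flv.D A g' ≠ ⊥ ∧ Flv.D A g' ≤ S := by
  obtain ⟨b, hb, -, hbB⟩ := h.C.exists_gen h.hB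
  obtain ⟨H, hH, h1, h2, h3⟩ := h.C.k1 h.hA hq eq hR hn hg (h.nA (mem_sup_right hb))
  have hE : A ⊔ B ≤ H := sup_le h1 (hbB ▸ zpowers_le.2 h3)
  obtain ⟨F, K, hG, hK⟩ := h.good hH hE
  have h4 := (h.C.D_le_core h.hA hq eq hR hn hg hG (le_sup_left.trans hK) h2).2
  have hO := pCoreOf_isPGroup q F
  have nO := hE.trans (hG.ncore q)
  obtain ⟨S, hS, h5⟩ := exists_max (k.cl hO nO)
  have h6 : ⁅pCoreOf q F, A⁆ ≤ S := (commutator_mono le_rfl le_sup_left).trans h5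
  obtain ⟨e, he, e1, h7⟩ := coprime_abelian_exists_cent1 (M := C[A]) h.ab h.ncyc nO
    (cop_pq h.C.pp hq eq h.pg hO) fun hc => hne (le_bot_iff.1 (h4.trans (comm_eq_bot_iff.2 hc).le))
  have heA : e ∉ A := fun hA => h7 (by rw [h.c1_eq hA e1]; exact inf_le_right)
  have : ¬ ∀ g' ∈ pCoreOf q F ⊓ C1[e], Flv.D A g' ≤ ⊥ := fun hc =>
    h7 (comm_eq_bot_iff.1 (le_bot_iff.1 (Flv.comm_le_of_D hc)))
  push Not at this
  obtain ⟨g', hg', h8⟩ := this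
  exact ⟨S, e, _, g', hS, h.sp hO nO he heA, hg', h4.trans h6, fun e => h8 e.le, (Flv.D_le_comm hg'.1).trans h6⟩

theorem e3 (hq : q.Prime) (eq : q ≠ p) (k : K2 q (A ⊔ B)) (t : TI q (A ⊔ B)) : IsPGroup q (Wq q A) := by
  by_cases hb : ∀ R : Subgroup G, IsPGroup q R → A ≤ N[R] → ∀ g ∈ R, Flv.D A g = ⊥
  · exact IsPGroup.of_bot.to_le (Wq_le fun R hR hn => Flv.comm_le_of_D fun g hg => (hb R hR hn g hg).le)
  push Not at hb
  obtain ⟨R, hR, hn, g, hg, hne⟩ := hb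
  obtain ⟨S, e, R', g', hS, s, hg', -, h1, h2⟩ := h.e1 hq eq k hR hn hg hne
  refine hS.prop.1.to_le (Wq_le fun R hR hn => Flv.comm_le_of_D fun g hg => ?_)
  by_cases hne : Flv.D A g = ⊥
  · rw [hne]; exact bot_le
  obtain ⟨S₂, e₂, R₂, g₂, hS₂, s₂, hg₂, h3, h4, h5⟩ := h.e1 hq eq k hR hn hg hne
  obtain ⟨H, hH, hE, h6, h7⟩ := h.e2 hq hq eq eq s s₂ hg' hg₂
  obtain ⟨F, K, hG, hK⟩ := h.good hH hE
  obtain ⟨U, hU, h8⟩ := exists_max (k.cl (pCoreOf_isPGroup q F) (hE.trans (hG.ncore q)))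
  have h9 : ⁅pCoreOf q F, A⁆ ≤ U := (commutator_mono le_rfl le_sup_left).trans h8
  have a1 := (h.C.D_le_core h.hA hq eq s.pg (le_sup_left.trans s.norm) hg' hG (le_sup_left.trans hK) h6).2
  have a2 := (h.C.D_le_core h.hA hq eq s₂.pg (le_sup_left.trans s₂.norm) hg₂ hG (le_sup_left.trans hK) h7).2
  rw [t S U hS hU (ne_bot_of_le_ne_bot h1 (le_inf h2 (a1.trans h9))),
    ← t S₂ U hS₂ hU (ne_bot_of_le_ne_bot h4 (le_inf h5 (a2.trans h9)))]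
  exact h3

theorem e4 (hq : q.Prime) (eq : q ≠ p) (hS : IsPGroup q (Wq q A)) {M : Subgroup G}
    (hM : ∀ e R g, Sp q A B e R → g ∈ R → Flv.D A g ≤ M) : Wq q A ≤ M := by
  set S := Wq q A with hSd
  have nS : A ⊔ B ≤ N[S] := h.nA.trans (norm_le_norm_Wq q A)
  have h1 : S ≤ ⁅S, A⁆ := Wq_le fun R hR hn => by
    rw [← commGid h.C.pp hq eq (h.C.pgroup h.hA) hR hn]
    exact commutator_mono (le_Wq hR hn) le_rfl
  have h2 : ⁅S, A⁆ ≤ (S ⊓ M) ⊔ frattiniOf S := by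
    refine comm_le_of_gen (le_norm_of_der_le ((der_le_Phi hq hS).trans le_sup_right)
      (sup_le inf_le_left (frattiniOf_le S))) fun X hX => ?_
    refine coprime_abelian_gen_cent1 h.ab h.ncyc nS (cop_pq h.C.pp hq eq h.pg hS) fun e he e1 =>
      hX _ inf_le_left ?_
    by_cases hA : e ∈ A
    · rw [h.c1_eq hA e1, comm_eq_bot_iff.2 inf_le_right]; exact bot_le
    · have s := h.sp hS nS he hA
      exact le_sup_left.trans' (le_inf ((comm_le_left (le_sup_left.trans s.norm)).trans inf_le_left)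
        (Flv.comm_le_of_D fun g hg => hM e _ g s hg))
  exact (Phi_nongen (h1.trans h2) inf_le_left).ge.trans inf_le_right

theorem e5 (hq : q.Prime) (hr : r.Prime) (eq : q ≠ p) (er : r ≠ p) (hqr : q ≠ r) (h1 : IsPGroup q (Wq q A))
    (h2 : IsPGroup r (Wq r A)) : Wq q A ≤ C[Wq r A] := by
  refine h.e4 hq eq h1 fun e₁ R₁ g₁ s₁ m₁ => cent_symm (h.e4 hr er h2 fun e₂ R₂ g₂ s₂ m₂ => ?_)
  obtain ⟨H, hH, hE, h6, h7⟩ := h.e2 hq hr eq er s₁ s₂ m₁ m₂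
  obtain ⟨F, K, hG, hK⟩ := h.good hH hE
  have a1 := (h.C.D_le_core h.hA hq eq s₁.pg (le_sup_left.trans s₁.norm) m₁ hG (le_sup_left.trans hK) h6).1
  have a2 := (h.C.D_le_core h.hA hr er s₂.pg (le_sup_left.trans s₂.norm) m₂ hG (le_sup_left.trans hK) h7).1
  exact cent_le_cent_mono a2 a1 (core_cent_core hr hq hqr.symm F)

end SE

theorem stepE : StepES.{u} := by
  intro G _ _ p D hC A hA B hB hne hc hk
  have h : SE p D A B := ⟨hC, hA, hB, hne, hc⟩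
  have h3 : ∀ q : ℕ, q.Prime → q ≠ p → IsPGroup q (Wq q A) := fun q hq e => h.e3 hq e (hk q hq e).1 (hk q hq e).2
  refine (np_of_gen (𝒮 := {S | ∃ q : ℕ, q.Prime ∧ q ≠ p ∧ S = Wq q A}) hC.pp ?_).of_le
    (W_le fun q hq e => le_sSup ⟨q, hq, e, rfl⟩)
  rintro _ ⟨q, hq, e, rfl⟩
  refine ⟨np_of_pgroup hC.pp hq e (h3 q hq e), sSup_le ?_⟩
  rintro _ ⟨r, hr, er, rfl⟩
  by_cases hqr : r = q
  · subst hqr; exact le_norm_self _
  · exact le_norm_of_le_cent (h.e5 hr hq er e hqr (h3 r hr er) (h3 q hq e))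

end CL.F2C
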