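/-
Project F2C: the groups `W p A` are not all nilpotent `p'`-groups.
-/
import Cfsg.Agent.F2C.Asm
import Cfsg.Agent.S0199

set_option autoImplicit false
set_option linter.unusedSectionVars false

open Cfsg CL.Grp CL.Odd
open scoped Pointwise commutatorElement

namespace CL.F2C

universe u

namespace StepIx

variable {G : Type u} [Group G] [Finite G] {p : ℕ} {D : Set (Subgroup G)}

/-- generated by the `W p C` with `C ≤ M` -/
def X (p : ℕ) (D : Set (Subgroup G)) (M : Subgroup G) : Subgroup G := sSup {S | ∃ C ∈ D, C ≤ M ∧ S = W p C}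

theorem le_X {M C : Subgroup G} (hC : C ∈ D) (h : C ≤ M) : W p C ≤ X p D M := le_sSup ⟨C, hC, h, rfl⟩

variable (hC : Core p D)
include hC

theorem nX (M : Subgroup G) : N[M] ≤ N[X p D M] := fun t ht =>
  mem_norm_of_cj_le (cj_le_iff_le_cj_inv.2 (sSup_le (by
    rintro _ ⟨C, h1, h2, rfl⟩
    rw [← cj_le_iff_le_cj_inv, cj_W]
    exact le_X (hC.conj C h1 t) (cj_le_of_mem_norm h2 ht))))

theorem npX (hW : ∀ A ∈ D, NP p (W p A)) {M : Subgroup G}
    (h : ∀ B ∈ D, ∀ B' ∈ D, B ≤ M → B' ≤ M → W p B ≤ N[W p B']) : NP p (X p D M) :=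
  np_of_gen hC.pp (by
    rintro _ ⟨C, h1, h2, rfl⟩
    refine ⟨hW C h1, sSup_le ?_⟩
    rintro _ ⟨B, h3, h4, rfl⟩
    exact h B h3 C h1 h4 h2)

theorem W_ne {A : Subgroup G} (hA : A ∈ D) : W p A ≠ ⊥ := by
  intro h0
  haveI := Fact.mk hC.pp
  obtain ⟨M, hM, hMp, hAM⟩ := Cfsg.Agent.S0199.result A (hC.pgroup hA) fun g => by
    rw [← cj_eq_map]
    obtain ⟨F, K, hG, hK⟩ := hC.h2 _ (hC.h1 A hA g)
    have hB := hC.conj A hA g
    have hBH : cj g • A ≤ A ⊔ Subgroup.zpowers g :=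
      cj_le_of_mem le_sup_left (Subgroup.mem_sup_right (Subgroup.mem_zpowers g))
    have key : ∀ B ∈ D, W p B = ⊥ → B ≤ A ⊔ Subgroup.zpowers g → B ≤ K ⊓ C[F] := fun B hB e hle =>
      le_inf (hK B hB hle) (comm_eq_bot_iff'.1 (le_bot_iff.1 (e ▸ hG.np.comm_le_W hC.pp (hle.trans hG.nF))))
    have hc : (K ⊓ C[F]) ⊓ F ≤ C[K ⊓ C[F]] := inf_le_right.trans (cent_symm inf_le_right)
    have hn : Group.IsNilpotent ↥(K ⊓ C[F]) := nil_of_quo_center hc (nil_of_isPGroup hC.pp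
      ((isPGroup_quo_iff (le_norm_of_le_cent (cent_symm hc))).2 fun x hx => by
        obtain ⟨n, hn⟩ := hG.pw x hx.1
        exact ⟨n, pow_mem hx _, hn⟩))
    exact (pCoreOf_isPGroup p _).to_le (sup_le
      (le_pCoreOf_of_isNilpotent hn (hC.pgroup hA) (key A hA h0 le_sup_left))
      (le_pCoreOf_of_isNilpotent hn (hC.pgroup hB) (key _ hB (by rw [← cj_W, h0, cj_bot]) hBH)))
  exact hC.ne_bot hA (le_bot_iff.1 (hC.fit M hM (nil_of_isPGroup hC.pp hMp) ▸ hAM))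

theorem in_p (hW : ∀ A ∈ D, NP p (W p A)) (T : Subgroup G) (hT : IsPGroup p T) :
    ∀ B ∈ D, ∀ B' ∈ D, B ≤ T → B' ≤ T → W p B ≤ N[W p B'] := by
  haveI := Fact.mk hC.pp
  induction' hn : Nat.card T using Nat.strong_induction_on with n ih generalizing T
  intro B hB B' hB' h1 h2
  rcases h1.eq_or_lt with rfl | hlt
  · rw [hC.eq_of_le hB' hB h2]; exact le_norm_self _
  obtain ⟨M, hBM, hM⟩ := Finite.exists_le_maximal (p := fun M : Subgroup G => M < T) hlt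
  have hTM : T ≤ N[M] := by
    have h3 := lt_inf_normalizer_of_isPGroup hT hM.prop
    by_contra h4
    have h5 : T ⊓ N[M] < T := lt_of_le_of_ne inf_le_left fun e => h4 (inf_eq_left.1 e)
    exact h3.not_ge (hM.le_of_ge h5 h3.le)
  have hX := npX hC hW (ih _ (hn ▸ card_lt_card_of_lt hM.prop) M (hT.to_le hM.prop.le) rfl)
  exact (le_X hB hBM).trans (hX.le_norm_W hC.pp (hC.pgroup hB') ((h2.trans hTM).trans (nX hC M)))

theorem all (hW : ∀ A ∈ D, NP p (W p A)) {B B' : Subgroup G} (hB : B ∈ D) (hB' : B' ∈ D) : W p B ≤ N[W p B'] := by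
  obtain ⟨y, rfl⟩ := hC.trans B hB B' hB'
  obtain ⟨F, K, hG, hK⟩ := hC.h2 _ (hC.h1 B hB y)
  have hBH : cj y • B ≤ B ⊔ Subgroup.zpowers y :=
    cj_le_of_mem le_sup_left (Subgroup.mem_sup_right (Subgroup.mem_zpowers y))
  obtain ⟨u, hu, hp⟩ := hG.syl hC.pp (hC.pgroup hB) (hC.pgroup hB') (hK B hB le_sup_left) (hK _ hB' hBH)
  have h1 := in_p hC hW _ hp B hB _ (hC.conj _ hB' u) le_sup_left le_sup_right
  rwa [← cj_W u, cj_eq_self (hG.np.le_norm_W hC.pp (hC.pgroup hB') (hBH.trans hG.nF) hu)] at h1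

end StepIx

theorem stepI : StepIS.{u} := by
  intro G _ _ p D hC hW
  obtain ⟨A, hA⟩ := hC.ne
  have h1 := StepIx.nX hC ⊤
  rw [norm_top, top_le_iff, norm_eq_top_iff] at h1
  have h2 := hC.fit _ h1 (StepIx.npX hC hW fun B hB B' hB' _ _ => StepIx.all hC hW hB hB').1
  exact StepIx.W_ne hC hA (le_bot_iff.1 (h2 ▸ StepIx.le_X hA le_top))

end CL.F2C
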