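/-
Project F2C: the trivial intersection property and the centraliser conditions.
-/
import Cfsg.Agent.F2C.StepE
import Cfsg.Agent.S0199

set_option autoImplicit false
set_option linter.unusedSectionVars false

open Cfsg CL.Grp CL.Odd Subgroup
open scoped Pointwise commutatorElement

namespace CL.F2C

universe u

theorem ti : TIS.{u} := by
  intro G _ _ p q D hC hq eq A hA B hB hE k
  have := Fact.mk hq
  suffices h : ∀ n : ℕ, ∀ S T : Subgroup G, Maximal (Cl q (A ⊔ B)) S → Maximal (Cl q (A ⊔ B)) T → S ⊓ T ≠ ⊥ →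
      Nat.card G - Nat.card ↥(S ⊓ T) = n → S = T from fun S T hS hT hne => h _ S T hS hT hne rfl
  intro n
  induction n using Nat.strong_induction_on with
  | _ n ih =>
  intro S T hS hT hne hn
  by_contra hST
  have nJ : A ⊔ B ≤ N[S ⊓ T] := le_norm_inf hS.prop.2.1 hT.prop.2.1
  obtain ⟨F, K, hG, hK⟩ := hC.h2 _ (hC.norm_ne_top' hq (hS.prop.1.to_le inf_le_left) hne)
  have hEK : A ⊔ B ≤ K := sup_le (hK A hA (le_sup_left.trans nJ)) (hK B hB (le_sup_right.trans nJ))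
  have nO := nJ.trans (hG.ncore q)
  have hZ : pCoreOf q C[A ⊔ B] ⊓ N[S ⊓ T] ≤ C[A ⊔ B] := inf_le_left.trans (pCoreOf_le q _)
  have nZ : pCoreOf q C[A ⊔ B] ⊓ N[S ⊓ T] ≤ N[⁅pCoreOf q F, A ⊔ B⁆] :=
    le_norm_comm (inf_le_right.trans (hG.ncore q)) (le_norm_of_le_cent hZ)
  have hcl : Cl q (A ⊔ B) (⁅pCoreOf q F, A ⊔ B⁆ ⊔ (pCoreOf q C[A ⊔ B] ⊓ N[S ⊓ T])) := by
    refine ⟨pgroup_sup (pgroup_comm (pCoreOf_isPGroup q F) nO) ((pCoreOf_isPGroup q _).to_le inf_le_left) nZ,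
      le_norm_sup (right_le_norm_comm _ _) (le_norm_of_le_cent (cent_symm hZ)), ?_⟩
    rw [inf_comm, inf_sup_dedekind' (Or.inl nZ) hZ, inf_comm]
    exact sup_le (k _ (pCoreOf_isPGroup q F) nO) inf_le_left
  obtain ⟨U, hU, h1⟩ := exists_max hcl
  have key : ∀ X : Subgroup G, Maximal (Cl q (A ⊔ B)) X → S ⊓ T < X → X = U := fun X hX hlt => by
    have h2 := lt_inf_normalizer_of_isPGroup hX.prop.1 hlt
    have hp : IsPGroup q ↥(X ⊓ N[S ⊓ T]) := hX.prop.1.to_le inf_le_left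
    have nX : A ⊔ B ≤ N[X ⊓ N[S ⊓ T]] := le_norm_inf hX.prop.2.1 (le_norm_norm nJ)
    have h3 : X ⊓ N[S ⊓ T] ≤ U := by
      rw [← coprime_cent_prod nX (cop_pq hC.pp hq eq hE hp) (Or.inr (sol_of_isPGroup hq hp))]
      exact (sup_le_sup (hG.comm_le_comm_core hC.pp hq eq hp inf_le_right hEK hE nX)
        (le_inf ((inf_le_inf_right _ inf_le_left).trans hX.prop.2.2) (inf_le_left.trans inf_le_right))).trans h1
    have h4 : S ⊓ T < X ⊓ U := h2.trans_le (le_inf inf_le_left h3)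
    refine ih _ ?_ X U hX hU (ne_bot_of_gt h4) rfl
    have h5 : Nat.card ↥(S ⊓ T) < Nat.card ↥(X ⊓ U) := lt_of_le_of_ne (card_le_of_le h4.le) fun e =>
      h4.ne (eq_of_le_of_card_ge h4.le e.ge)
    have h6 := (X ⊓ U).card_le_card_group
    omega
  exact hST ((key S hS (lt_of_le_of_ne inf_le_left fun e => hST (hS.eq_of_le hT.prop (inf_eq_left.1 e)))).trans
    (key T hT (lt_of_le_of_ne inf_le_right fun e => hST (hT.eq_of_le hS.prop (inf_eq_right.1 e)).symm)).symm)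

theorem k2e (hg : GenS.{u}) : K2ES.{u} := by
  intro G _ _ p q D hC hq eq A hA B hB hne hc Q hQ hn
  have h : SE p D A B := ⟨hC, hA, hB, hne, hc⟩
  refine hg G p q _ Q _ hC.pp hq eq h.pg h.ab h.ncyc hQ hn fun e he e1 => ?_
  obtain ⟨F, K, hG, hK⟩ := h.good (hC.c1_ne_top e1) (h.le_c1 he)
  refine le_trans (inf_le_inf_right _ ?_) (pCoreOf_inf_le (cent_le_c1 he))
  exact (hG.comm_le_core hC.pp hq eq (hQ.to_le inf_le_left) inf_le_right hK
    (le_norm_inf hn (le_norm_c1_of_le_c1 (h.le_c1 he)))).trans (hG.core_le q)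

theorem k2a : K2AS.{u} := by
  intro G _ _ p q D hC hq eq h2 A hA Q hQ hn
  have := Fact.mk hq
  rw [Flv.main hC.pp h2 (hC.card A hA) hn (cop_pq hC.pp hq eq (hC.pgroup hA) hQ) (sol_of_isPGroup hq hQ),
    Flv.Sg_le_iff]
  intro g hg
  have hX : IsPGroup q ↥(Flv.D A g ⊓ C[A]) := hQ.to_le (inf_le_left.trans (Flv.D_le hg hn))
  obtain ⟨M, hM, hMq, hle⟩ := Cfsg.Agent.S0199.result (p := q) ((Flv.D A g ⊓ C[A]).subgroupOf C[A])
    hX.comap_subtype fun n => by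
      obtain ⟨H, hH, h3, h4, h5⟩ := hC.k1 hA hq eq hQ hn hg (cent_le_norm A n.2)
      obtain ⟨F, K, hG, hK⟩ := hC.h2 H hH
      have h6 := (hC.D_le_core hA hq eq hQ hn hg hG (hK A hA h3) h4).1
      refine ((pCoreOf_isPGroup q F).comap_subtype (K := C[A])).to_le (sup_le (fun x hx => h6 hx.1) ?_)
      rintro _ ⟨x, hx, rfl⟩
      exact (conj_mem_of_norm (hG.ncore q h5) (h6 hx.1) : (n : G) * x * (n : G)⁻¹ ∈ pCoreOf q F)
  have h7 := NormalIn.map_subtype M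
  exact fun x hx => le_pCoreOf h7.le h7.norm (hMq.map _) ⟨⟨x, hx.2⟩, hle hx, rfl⟩

end CL.F2C
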