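/-
Project F2C: when distinct members of the class do not commute, they do not generate a `p`-group, `p` is odd,
and the line property fails.
-/
import Cfsg.Agent.F2C.Asm
import Cfsg.Agent.Odd.FT
import Cfsg.Agent.S0215
import Cfsg.Agent.S0042
import Cfsg.Agent.S0035

set_option autoImplicit false
set_option linter.unusedSectionVars false

open Cfsg CL.Grp CL.Odd
open scoped Pointwise commutatorElement

namespace CL.F2C

universe u

namespace WPa

variable {G : Type u} [Group G] [Finite G] {p : ℕ} {D : Set (Subgroup G)} {A B S T T' : Subgroup G} {c : G}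

/-- a member of the class normalizing another one is equal to it. -/
theorem eq_of_norm (hC : Core p D) (hW : WC D) (hA : A ∈ D) (hB : B ∈ D) (h : B ≤ N[A]) : A = B :=
  hW A hA B hB (hC.cent_of_norm hA (hC.pgroup hB) h)

/-- a `p`-group over a member of the class normalizes it. -/
theorem le_norm (hC : Core p D) (hW : WC D) (hA : A ∈ D) (hS : IsPGroup p S) (h : A ≤ S) : S ≤ N[A] := by
  have := Fact.mk hC.pp
  by_contra hn
  have h1 : S ⊓ N[A] < S := lt_of_le_of_ne inf_le_left fun e => hn (e ▸ inf_le_right)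
  obtain ⟨t, ht, hn'⟩ := SetLike.exists_of_lt (lt_inf_normalizer_of_isPGroup hS h1)
  have h2 : cj t • A ≤ S ⊓ N[A] := cj_le_of_mem_norm (le_inf h (le_norm_self A)) ht.2
  exact hn' ⟨ht.1, cj_eq_self_iff.1 (eq_of_norm hC hW hA (hC.conj A hA t) (h2.trans inf_le_right)).symm⟩

theorem eq_of_pgroup (hC : Core p D) (hW : WC D) (hA : A ∈ D) (hB : B ∈ D) (hS : IsPGroup p S) (h : A ≤ S)
    (h' : B ≤ S) : A = B :=
  eq_of_norm hC hW hA hB (h'.trans (le_norm hC hW hA hS h))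

theorem ne_two (hC : Core p D) (hW : WC D) : p ≠ 2 := by
  classical
  rintro rfl
  have := Fact.mk Nat.prime_two
  obtain ⟨A, hA⟩ := hC.ne
  obtain ⟨a, ha, ha1, hz⟩ := hC.exists_gen hA
  have ho : orderOf a = 2 := by rw [← Nat.card_zpowers, hz, hC.card A hA]
  obtain ⟨P, hP⟩ := (hC.pgroup hA).exists_le_sylow
  obtain ⟨M, hM, hodd, h⟩ := Cfsg.Agent.S0215.result P a ho (hP ha) fun g hg => by
    have e : A = cj g • A := eq_of_pgroup hC hW hA (hC.conj A hA g) P.isPGroup' hP (by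
      rw [← hz, cj_zpowers]; exact (Subgroup.zpowers_le).2 hg)
    have h1 : g * a * g⁻¹ ∈ Subgroup.zpowers a := by
      rw [hz]; nth_rewrite 1 [e]; exact conj_mem_cj.2 ha
    rw [mem_zpowers_iff_mem_range_orderOf, ho] at h1
    simp only [Finset.mem_image, Finset.mem_range] at h1
    obtain ⟨k, hk, e'⟩ := h1
    interval_cases k
    · rw [pow_zero] at e'; exact absurd (conj_eq_one_iff'.1 e'.symm) ha1
    · rw [← e', pow_one]
  have hb : M = ⊥ := trivg_Fitting (feit_thompson hodd) (hC.fit _ inferInstance (fittingOf_isNilpotent M))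
  refine hC.c1_ne_top ha1 (eq_top_iff.2 fun g _ => mem_c1.2 ?_)
  have h2 := h g
  rw [hb, Subgroup.mem_bot] at h2
  calc g * a = (a * g * a⁻¹ * g⁻¹) * (g * a) := by rw [h2, one_mul]
    _ = a * g := by group

theorem line_a (hC : Core p D) (hL : Line D) (hA : A ∈ D) (hB : B ∈ D) (hT : T ∈ D) (hT' : T' ∈ D) (h : A ≠ B)
    (h1 : A ⊔ B ⊔ T ≠ ⊤) (h2 : A ⊔ B ⊔ T' ≠ ⊤) : A ⊔ B ⊔ T ⊔ T' ≠ ⊤ := by
  obtain ⟨M, hM, hN, h3⟩ := hL A hA B hB h
  have hBM : B ≤ M := h3 B hB (by rw [sup_assoc, sup_idem]; exact hC.sup_ne_top hA hB)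
  exact ne_top_of_le_ne_top hM
    (sup_le (sup_le (sup_le ((le_norm_self A).trans hN) hBM) (h3 T hT h1)) (h3 T' hT' h2))

theorem line_b (hC : Core p D) (hL : Line D) (hA : A ∈ D) (hT : T ∈ D) (h : A ≠ T) (hc : c ∈ N[A]) :
    T ⊔ cj c • T ⊔ A ≠ ⊤ := by
  obtain ⟨M, hM, hN, h3⟩ := hL A hA T hT h
  have hTM : T ≤ M := h3 T hT (by rw [sup_assoc, sup_idem]; exact hC.sup_ne_top hA hT)
  exact ne_top_of_le_ne_top hM
    (sup_le (sup_le hTM (cj_le_of_mem hTM (hN hc))) ((le_norm_self A).trans hN))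

theorem fix1 (hC : Core p D) (hL : Line D) (hA : A ∈ D) (hB : B ∈ D) (hT : T ∈ D) (h1 : c ∈ N[A]) (h2 : c ∈ N[B])
    (h : A ⊔ B ⊔ T = ⊤) : c ∈ N[T] := by
  have e1 : A ≠ T := fun e => hC.sup_ne_top hT hB (by
    rw [← h, e]; exact le_antisymm le_sup_left (sup_le le_rfl le_sup_left))
  have e2 : B ≠ T := fun e => hC.sup_ne_top hA hT (by rw [← h, e, sup_assoc, sup_idem])
  by_contra hn
  have e : T ≠ cj c • T := fun e => hn (cj_eq_self_iff.1 e.symm)
  refine line_a hC hL hT (hC.conj T hT c) hA hB e (line_b hC hL hA hT e1 h1) (line_b hC hL hB hT e2 h2)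
    (eq_top_iff.2 (h ▸ ?_))
  exact sup_le (sup_le (le_sup_right.trans le_sup_left) le_sup_right)
    (le_sup_left.trans (le_sup_left.trans le_sup_left))

theorem fix2 (hC : Core p D) (hL : Line D) (hA : A ∈ D) (hB : B ∈ D) (hT : T ∈ D) (h : A ≠ B) (h1 : c ∈ N[A])
    (h2 : c ∈ N[B]) : c ∈ N[T] := by
  obtain ⟨T₀, h0, e0⟩ : ∃ T₀ ∈ D, A ⊔ B ⊔ T₀ = ⊤ := by
    by_contra hn
    obtain ⟨M, hM, -, h3⟩ := hL A hA B hB h
    exact hM (eq_top_iff.2 (hC.gen ▸ sSup_le fun X hX => h3 X hX fun e => hn ⟨X, hX, e⟩))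
  have h3 := fix1 hC hL hA hB h0 h1 h2 e0
  by_cases eA : A = T
  · exact eA ▸ h1
  by_cases e1 : A ⊔ B ⊔ T = ⊤
  · exact fix1 hC hL hA hB hT h1 h2 e1
  by_cases e2 : A ⊔ T₀ ⊔ T = ⊤
  · exact fix1 hC hL hA h0 hT h1 h3 e2
  refine (line_a hC hL hA hT hB h0 eA (by rwa [sup_right_comm]) (by rwa [sup_right_comm])
    (eq_top_iff.2 (e0 ▸ ?_))).elim
  exact sup_le (sup_le (le_sup_left.trans (le_sup_left.trans le_sup_left)) (le_sup_right.trans le_sup_left))
    le_sup_right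

/-- only the identity normalizes every member of the class. -/
theorem eq_one_of_norm (hC : Core p D) (hW : WC D) (h : ∀ T ∈ D, c ∈ N[T]) : c = 1 := by
  have hm : ∀ x : G, x ∈ (⨅ T ∈ D, N[T] : Subgroup G) ↔ ∀ T ∈ D, x ∈ N[T] := fun x => by
    simp only [Subgroup.mem_iInf]
  generalize (⨅ T ∈ D, N[T] : Subgroup G) = M at hm
  have hn : ∀ g : G, g ∈ N[M] := fun g => mem_norm_of_cj_le fun x hx => (hm x).2 fun T hT => by
    rw [← cj_cj_inv g T, ← cj_normalizer, mem_cj]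
    exact (hm _).1 (mem_cj.1 hx) _ (hC.conj T hT _)
  have h1 : ∀ T ∈ D, ¬ T ≤ M := fun T hT hle =>
    hC.norm_ne_top' hC.pp (hC.pgroup hT) (hC.ne_bot hT) (eq_top_iff.2 fun g _ => cj_eq_self_iff.1
      (eq_of_norm hC hW (hC.conj T hT g) hT fun x hx => (hm x).1 (hle hx) _ (hC.conj T hT g)))
  have h2 : ∀ T ∈ D, T ≤ C[M] := fun T hT =>
    le_cent_of_inf_eq_bot (fun x hx => (hm x).1 hx T hT) (fun g _ => hn g) (hC.inf_eq_bot hT (h1 T hT))
  by_contra hc
  exact hC.c1_ne_top hc (eq_top_iff.2 (hC.gen ▸ (sSup_le h2).trans (cent_le_c1 ((hm c).2 h))))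

theorem not_line (hC : Core p D) (hW : WC D) : ¬ Line D := fun hL => by
  obtain ⟨A, hA⟩ := hC.ne
  have hne : N[A] ≠ ⊤ := hC.norm_ne_top' hC.pp (hC.pgroup hA) (hC.ne_bot hA)
  have hF : IsFrobeniusComplement N[A] := by
    refine ⟨fun e => hC.ne_bot hA (le_bot_iff.1 (e ▸ le_norm_self A)), hne, fun g hg => ?_⟩
    refine eq_bot_iff.2 fun c hc => Subgroup.mem_bot.2 (eq_one_of_norm hC hW fun T hT => ?_)
    refine fix2 hC hL hA (hC.conj A hA g) hT (fun e => hg (cj_eq_self_iff.1 e.symm)) hc.1 ?_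
    rw [← cj_normalizer]; exact hc.2
  obtain ⟨M, e, hM, hnil⟩ := Cfsg.Agent.S0042.result _ hF
  obtain ⟨M', e', -, hc⟩ := Cfsg.Agent.S0035.result _ hF
  have e2 : M' = ⊥ := by rw [← hC.fit M hM hnil]; exact SetLike.coe_injective (e'.trans e.symm)
  have := hc.sup_eq_top
  rw [e2, bot_sup_eq] at this
  exact hne this

end WPa

theorem wp : WPS.{u} := fun _ _ _ _ _ hC hW =>
  ⟨fun _ hA _ hB h => WPa.eq_of_pgroup hC hW hA hB h le_sup_left le_sup_right, WPa.ne_two hC hW,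
    WPa.not_line hC hW⟩

end CL.F2C
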